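/-
Field facts for a presentation of `SU₃` with few relations.
-/
import Cfsg.Agent.Lib.SU3Pres.Model
import Cfsg.Agent.Lib.SL2Pres.Fields
import Cfsg.Agent.Lib.SL3Pres.Cubes

set_option autoImplicit false
set_option linter.unusedSectionVars false

open Polynomial
open scoped IntermediateField
open CfsgLib.Amalgams

namespace CfsgLib.SU3Pres

variable {F : Type*} [Field F] [Finite F] {σ : F →+* F} {q : ℕ} (h : UniField F σ q)
  {p : ℕ} [Fact p.Prime] [Algebra (ZMod p) F]

/-- The character on the short root, on units. -/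
def muU (σ : F →+* F) : Fˣ →* Fˣ :=
  MonoidHom.mk' (fun l => sU σ l ^ 2 / l) fun a b => by
    rw [map_mul, mul_pow, div_mul_div_comm]

theorem coe_muU (l : Fˣ) : ((muU σ l : Fˣ) : F) = muF σ l := by
  simp [muU, muF]

/-- The character on the long root, on units. -/
def nuU (σ : F →+* F) : Fˣ →* Fˣ :=
  MonoidHom.mk' (fun l => l * sU σ l) fun a b => by
    rw [map_mul, mul_mul_mul_comm]

theorem coe_nuU (l : Fˣ) : ((nuU σ l : Fˣ) : F) = nuF σ l := rfl

theorem muF_mul (a b : Fˣ) : muF σ (a * b) = muF σ a * muF σ b := by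
  rw [← coe_muU, ← coe_muU, ← coe_muU, map_mul, Units.val_mul]

theorem muF_pow (a : Fˣ) (k : ℕ) : muF σ (a ^ k) = muF σ a ^ k := by
  rw [← coe_muU, ← coe_muU, map_pow, Units.val_pow_eq_pow_val]

theorem nuF_pow (a : Fˣ) (k : ℕ) : nuF σ (a ^ k) = nuF σ a ^ k := by
  rw [← coe_nuU, ← coe_nuU, map_pow, Units.val_pow_eq_pow_val]

theorem muF_fixed (k : Fˣ) (hk : σ (k : F) = k) : muF σ k = k := by
  have : (k : F) ≠ 0 := k.ne_zero
  rw [muF, hk]; field_simp

include h

theorem muF_cube (l : Fˣ) : muF σ (l * sU σ l ^ 2) = (l : F) ^ 3 := by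
  have h0 : (l : F) ≠ 0 := l.ne_zero
  have h1 : σ (l : F) ≠ 0 := by simp
  simp only [muF, Units.val_mul, Units.val_pow_eq_pow_val, Units.coe_map, map_mul, map_pow]
  show (σ (l : F) * (σ (σ (l : F))) ^ 2) ^ 2 / ((l : F) * σ (l : F) ^ 2) = _
  rw [h.conj_conj]
  field_simp

theorem nuF_fixed (l : Fˣ) : σ (nuF σ l) = nuF σ l := by
  rw [nuF, map_mul, h.conj_conj, mul_comm]

variable {ω : Fˣ} (hω : orderOf ω = q ^ 2 - 1)
include hω

theorem exists_pow_omega (x : Fˣ) : ∃ k : ℕ, ω ^ k = x := by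
  have htop : Subgroup.zpowers ω = ⊤ :=
    Subgroup.eq_top_of_card_eq _ (by rw [Nat.card_zpowers, hω, Nat.card_units, h.card])
  exact mem_powers_iff_mem_zpowers.2 (htop ▸ Subgroup.mem_top x)

theorem dvd_of_pow_omega {m : ℕ} (e : (ω : F) ^ m = 1) : q ^ 2 - 1 ∣ m := by
  rw [← hω]
  exact orderOf_dvd_of_pow_eq_one (Units.ext (by rw [Units.val_pow_eq_pow_val, e, Units.val_one]))

theorem omega_pow_ne {m : ℕ} (h0 : 0 < m) (hm : m < q + 1) : (ω : F) ^ (m * (q - 1)) ≠ 1 := by
  intro e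
  have h1 := dvd_of_pow_omega h hω e
  rw [show q ^ 2 - 1 = (q + 1) * (q - 1) by simpa using Nat.sq_sub_sq q 1] at h1
  exact absurd (Nat.le_of_dvd h0 (Nat.dvd_of_mul_dvd_mul_right (by have := h.one_lt; omega) h1))
    (by omega)

theorem pow_sub_one_eq_of_fixed {x : F} (hx0 : x ≠ 0) (hx : σ x = x) : x ^ (q - 1) = 1 := by
  rw [h.apply_eq] at hx
  refine mul_right_cancel₀ hx0 ?_
  rw [← pow_succ, Nat.sub_add_cancel h.one_lt.le, hx, one_mul]

theorem not_fixed_omega_pow {m : ℕ} (h0 : 0 < m) (hm : m < q + 1) : σ ((ω : F) ^ m) ≠ (ω : F) ^ m := by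
  intro e
  have h1 := pow_sub_one_eq_of_fixed h hω (pow_ne_zero m ω.ne_zero) e
  rw [← pow_mul] at h1
  exact omega_pow_ne h hω h0 hm h1

/-- The short root character generates the field. -/
theorem aeval_mu_surjective (hq : 4 ≤ q) :
    Function.Surjective (aeval (muF σ ω) : (ZMod p)[X] →ₐ[ZMod p] F) := by
  have := Fintype.ofFinite F
  have hc : Fintype.card F ≠ 4 := by
    rw [← Nat.card_eq_fintype_card, h.card]
    have := Nat.mul_le_mul hq hq
    rw [sq]; omega
  set R := (aeval (muF σ ω) : (ZMod p)[X] →ₐ[ZMod p] F).range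
  have hcube : ∀ l : Fˣ, (l : F) ^ 3 ∈ R := fun l => by
    obtain ⟨k, hk⟩ := exists_pow_omega h hω (l * sU σ l ^ 2)
    refine ⟨X ^ k, ?_⟩
    show aeval (muF σ ω) (X ^ k : (ZMod p)[X]) = _
    rw [map_pow, aeval_X, ← muF_pow, hk, muF_cube h]
  have htop := SL3Pres.eq_top_of_mul_cube_mem hc R.toSubsemiring.toAddSubmonoid (one_mem R)
    fun s a hs ha => R.mul_mem (hcube (Units.mk0 s hs)) (show a ∈ R from ha)
  intro x
  have hx : x ∈ R.toSubsemiring.toAddSubmonoid := htop ▸ trivial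
  exact hx

/-- Fixed elements are polynomials in the long root character. -/
theorem exists_aeval_nu {x : F} (hx : σ x = x) : ∃ P : (ZMod p)[X], aeval (nuF σ ω) P = x := by
  rcases eq_or_ne x 0 with rfl | h0
  · exact ⟨0, map_zero _⟩
  obtain ⟨l, hl⟩ := h.exists_norm hx
  have hl0 : l ≠ 0 := fun e => h0 (by rw [← hl, e, zero_mul])
  obtain ⟨k, hk⟩ := exists_pow_omega h hω (Units.mk0 l hl0)
  refine ⟨X ^ k, ?_⟩
  rw [map_pow, aeval_X, ← nuF_pow, hk]
  exact hl

theorem exists_one_add_nu (hq : 4 ≤ q) : ∃ j : ℕ, nuF σ ω ^ j = 1 + nuF σ ω := by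
  have hfix : σ (1 + nuF σ ω) = 1 + nuF σ ω := by rw [map_add, map_one, nuF_fixed h]
  have hne : 1 + nuF σ ω ≠ 0 := by
    intro e
    have h1 : nuF σ ω ^ 2 = 1 := by linear_combination (nuF σ ω - 1) * e
    have h2 : (ω : F) ^ (2 * (q + 1)) = 1 := by
      rw [mul_comm, pow_mul, pow_succ' (ω : F) q, ← h.apply_eq]
      exact h1
    have h3 := dvd_of_pow_omega h hω h2
    rw [show q ^ 2 - 1 = (q + 1) * (q - 1) by simpa using Nat.sq_sub_sq q 1, mul_comm 2] at h3
    have := Nat.le_of_dvd (by norm_num) (Nat.dvd_of_mul_dvd_mul_left (by omega) h3)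
    omega
  obtain ⟨l, hl⟩ := h.exists_norm hfix
  have hl0 : l ≠ 0 := fun e => hne (by rw [← hl, e, zero_mul])
  obtain ⟨k, hk⟩ := exists_pow_omega h hω (Units.mk0 l hl0)
  exact ⟨k, by rw [← nuF_pow, hk]; exact hl⟩

theorem card_subfield_bound (K : IntermediateField (ZMod p) F) {η : F} {m : ℕ} (hηK : η ∈ K)
    (hη : η ^ m = (ω : F) ^ (3 * (q - 1))) (hm : η ≠ 0) : q + 4 ≤ 3 * Nat.card K := by
  have h1 : η ^ (Nat.card K - 1) = 1 := by
    have := Fintype.ofFinite K
    have e := FiniteField.pow_card_sub_one_eq_one (K := K) ⟨η, hηK⟩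
      (fun e => hm (congrArg Subtype.val e))
    rw [← Nat.card_eq_fintype_card] at e
    exact congrArg Subtype.val e
  have h2 : (ω : F) ^ (3 * (Nat.card K - 1) * (q - 1)) = 1 := by
    rw [mul_right_comm, pow_mul, ← hη, ← pow_mul, mul_comm, pow_mul, h1, one_pow]
  have h3 := dvd_of_pow_omega h hω h2
  rw [show q ^ 2 - 1 = (q + 1) * (q - 1) by simpa using Nat.sq_sub_sq q 1] at h3
  have hK : 1 < Nat.card K := Finite.one_lt_card
  have := Nat.le_of_dvd (by omega) (Nat.dvd_of_mul_dvd_mul_right (by have := h.one_lt; omega) h3)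
  omega

theorem pow_finrank_eq (K : IntermediateField (ZMod p) F) :
    Nat.card K ^ Module.finrank K F = q ^ 2 := by
  rw [← Module.natCard_eq_pow_finrank, h.card]

/-- The field has degree at most three over the field of the norm one part of the torus. -/
theorem exists_zeta_coords (hq : 4 ≤ q) (y : F) :
    ∃ P₀ P₁ P₂ : (ZMod p)[X], y = aeval (muF σ ω ^ (q - 1)) P₀ +
      muF σ ω * aeval (muF σ ω ^ (q - 1)) P₁ + muF σ ω ^ 2 * aeval (muF σ ω ^ (q - 1)) P₂ := by
  haveI : Module.Finite (ZMod p) F := Module.Finite.of_finite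
  set g := muF σ ω with hg
  set ζ := g ^ (q - 1) with hζ
  set K := (ZMod p)⟮ζ⟯
  have hζK : ζ ∈ K := IntermediateField.mem_adjoin_simple_self _ ζ
  have hrepr : ∀ x ∈ K, ∃ P : (ZMod p)[X], aeval ζ P = x := fun x hx => by
    rw [← IntermediateField.mem_toSubalgebra, IntermediateField.adjoin_simple_toSubalgebra_of_isAlgebraic
      (Algebra.IsAlgebraic.isAlgebraic ζ), Algebra.adjoin_singleton_eq_range_aeval] at hx
    exact hx
  have hgne : g ≠ 0 := by rw [hg, ← coe_muU]; exact Units.ne_zero _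
  have hcube : g ^ (2 * q + 1) = (ω : F) ^ 3 := by
    rw [hg, ← muF_pow, ← muF_cube h ω]
    congr 1
    rw [pow_succ', pow_mul']
    congr 2
    exact Units.ext (by rw [Units.val_pow_eq_pow_val]; exact (h.apply_eq _).symm)
  have hb : q + 4 ≤ 3 * Nat.card K := card_subfield_bound h hω K hζK
    (m := 2 * q + 1) (by rw [← pow_mul, mul_comm, pow_mul, hcube, ← pow_mul]) (pow_ne_zero _ hgne)
  have hpow := pow_finrank_eq h hω K
  have hn : Module.finrank K F ≤ 3 := by
    by_contra hn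
    have h4 : Nat.card K ^ 4 ≤ q ^ 2 := hpow ▸ Nat.pow_le_pow_right Nat.card_pos (by omega)
    have h2 : Nat.card K * Nat.card K ≤ q := by
      refine Nat.pow_le_pow_iff_left (n := 2) (by norm_num) |>.1 ?_
      calc (Nat.card K * Nat.card K) ^ 2 = Nat.card K ^ 4 := by ring
        _ ≤ q ^ 2 := h4
    nlinarith [Nat.card K]
  have hint : IsIntegral K g := IsIntegral.of_finite K g
  have hdeg : (minpoly K g).natDegree ≤ 3 := (minpoly.natDegree_le g).trans hn
  obtain ⟨Q, hQ⟩ := aeval_mu_surjective (p := p) h hω hq y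
  set P := (Q.map (algebraMap (ZMod p) K)) %ₘ minpoly K g with hPdef
  have hP : aeval g P = y := by
    rw [hPdef, Polynomial.modByMonic_eq_sub_mul_div, map_sub, map_mul, minpoly.aeval, zero_mul,
      sub_zero, aeval_map_algebraMap, hQ]
  have hP3 : P.natDegree < 3 := lt_of_lt_of_le
    (natDegree_modByMonic_lt _ (minpoly.monic hint) (minpoly.ne_one K g)) hdeg
  rw [aeval_eq_sum_range' hP3, Finset.sum_range_succ, Finset.sum_range_succ, Finset.sum_range_one] at hP
  obtain ⟨P₀, h0⟩ := hrepr _ (P.coeff 0).2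
  obtain ⟨P₁, h1⟩ := hrepr _ (P.coeff 1).2
  obtain ⟨P₂, h2⟩ := hrepr _ (P.coeff 2).2
  refine ⟨P₀, P₁, P₂, ?_⟩
  rw [h0, h1, h2, ← hP]
  simp only [Algebra.smul_def, pow_zero, pow_one]
  show ((P.coeff 0 : K) : F) * 1 + ((P.coeff 1 : K) : F) * g + ((P.coeff 2 : K) : F) * g ^ 2 = _
  ring

/-- A generator of the field in the image of the short root character, whose successor is there too,
unless the field is small. -/
theorem exists_good_or_small (hq : 6 ≤ q) :
    (∃ i j : ℕ, 1 + muF σ ω ^ i = muF σ ω ^ j ∧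
      Function.Surjective (aeval (muF σ ω ^ i) : (ZMod p)[X] →ₐ[ZMod p] F)) ∨
    Module.finrank (ZMod p) F ≤ 6 := by
  by_cases hN : Module.finrank (ZMod p) F ≤ 6
  · exact Or.inr hN
  left
  haveI : Module.Finite (ZMod p) F := Module.Finite.of_finite
  set θ := (ω : F) ^ 3 with hθ
  have hθ0 : θ ≠ 0 := pow_ne_zero 3 ω.ne_zero
  have hθσ : θ - σ θ ≠ 0 := fun e => not_fixed_omega_pow h hω (m := 3) (by norm_num) (by omega)
    (by rw [← hθ]; exact (sub_eq_zero.1 e).symm)
  set y := θ⁻¹ with hy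
  set k' := (y - σ y) / (θ - σ θ) with hk'
  set k := y - k' * θ with hk
  have hk'fix : σ k' = k' := by
    have e1 : σ θ - θ ≠ 0 := fun e => hθσ (by linear_combination -e)
    rw [hk', map_div₀, map_sub, map_sub, h.conj_conj, h.conj_conj, div_eq_div_iff e1 hθσ]
    ring
  have hkfix : σ k = k := by
    have e : k' * (θ - σ θ) = y - σ y := div_mul_cancel₀ _ hθσ
    rw [hk, map_sub, map_mul, hk'fix]
    linear_combination e
  have hk'0 : k' ≠ 0 := by
    intro e
    rw [hk', div_eq_zero_iff, or_iff_left hθσ, sub_eq_zero, hy, map_inv₀] at e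
    exact hθσ (sub_eq_zero.2 (inv_injective e))
  have hk0 : k ≠ 0 := by
    intro e
    refine not_fixed_omega_pow h hω (m := 6) (by norm_num) (by omega) ?_
    have e' : (ω : F) ^ 6 = k'⁻¹ := by
      have h1 : k' * θ = y := by linear_combination -e
      rw [hy] at h1
      field_simp at h1
      rw [show (ω : F) ^ 6 = θ * θ by rw [hθ]; ring]
      field_simp
      linear_combination h1
    rw [e', map_inv₀, hk'fix]
  set uk := Units.mk0 (-k) (neg_ne_zero.2 hk0)
  set uk' := Units.mk0 k' hk'0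
  set c := ω * sU σ ω ^ 2
  have hc : muF σ c = θ := muF_cube h ω
  obtain ⟨i, hi⟩ := exists_pow_omega h hω (uk * c)
  obtain ⟨j, hj⟩ := exists_pow_omega h hω (uk' * (c * c))
  have hxi : muF σ ω ^ i = -k * θ := by
    rw [← muF_pow, hi, muF_mul, hc, muF_fixed uk (by simp [uk, hkfix])]
    rfl
  have hxj : muF σ ω ^ j = k' * (θ * θ) := by
    rw [← muF_pow, hj, muF_mul, muF_mul, hc, muF_fixed uk' (by simp [uk', hk'fix])]
    rfl
  refine ⟨i, j, ?_, ?_⟩
  · rw [hxi, hxj, hk, hy]
    field_simp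
    ring
  set x := muF σ ω ^ i with hx
  set η := x ^ (q - 1) with hη
  set K := (ZMod p)⟮η⟯
  have hηK : η ∈ K := IntermediateField.mem_adjoin_simple_self _ η
  have hη' : η = (ω : F) ^ (3 * (q - 1)) := by
    rw [hη, hxi, mul_pow, pow_sub_one_eq_of_fixed h hω (neg_ne_zero.2 hk0) (by rw [map_neg, hkfix]),
      one_mul, hθ, ← pow_mul]
  have hη0 : η ≠ 0 := by rw [hη']; exact pow_ne_zero _ ω.ne_zero
  have hb : q + 4 ≤ 3 * Nat.card K :=
    card_subfield_bound h hω K hηK (m := 1) (by rw [pow_one, hη']) hη0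
  have hpow := pow_finrank_eq h hω K
  have hn : Module.finrank K F = 1 := by
    have hpos : 0 < Module.finrank K F := Module.finrank_pos
    have hmul := Module.finrank_mul_finrank (ZMod p) K F
    by_contra hne
    rcases (show Module.finrank K F = 2 ∨ Module.finrank K F = 3 ∨ 4 ≤ Module.finrank K F by omega)
      with e | e | e
    · rw [e] at hpow
      have hKq : Nat.card K = q := Nat.pow_left_injective two_ne_zero hpow
      have hfix : σ η = η := by
        have := Fintype.ofFinite K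
        rw [h.apply_eq, ← hKq, Nat.card_eq_fintype_card]
        exact congrArg Subtype.val (FiniteField.pow_card (K := K) ⟨η, hηK⟩)
      rw [hη'] at hfix
      have h1 := pow_sub_one_eq_of_fixed h hω (pow_ne_zero _ ω.ne_zero) hfix
      rw [← pow_mul] at h1
      have h3 := dvd_of_pow_omega h hω h1
      rw [show q ^ 2 - 1 = (q + 1) * (q - 1) by simpa using Nat.sq_sub_sq q 1] at h3
      have h4 := Nat.dvd_of_mul_dvd_mul_right (by omega) h3
      have h5 : q + 1 ∣ 6 := by
        have h6 : 3 * (q - 1) + 6 = 3 * (q + 1) := by omega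
        have := Nat.dvd_sub (dvd_mul_left (q + 1) 3) h4
        rwa [← h6, Nat.add_sub_cancel_left] at this
      have := Nat.le_of_dvd (by norm_num) h5
      omega
    · rw [e] at hpow hmul
      obtain ⟨f, -, hpf⟩ := (Nat.dvd_prime_pow (Fact.out : p.Prime)).1
        (show q ∣ p ^ Module.finrank (ZMod p) F by
          have hcard : Nat.card F = p ^ Module.finrank (ZMod p) F := by
            rw [Module.natCard_eq_pow_finrank (K := ZMod p), Nat.card_zmod]
          rw [← hcard, h.card]; exact dvd_pow_self q two_ne_zero)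
      have hcard : q ^ 2 = p ^ Module.finrank (ZMod p) F := by
        rw [← h.card, Module.natCard_eq_pow_finrank (K := ZMod p), Nat.card_zmod]
      rw [hpf, ← pow_mul] at hcard
      have he := Nat.pow_right_injective (Fact.out : p.Prime).two_le hcard
      have hq64 : 2 ^ 6 ≤ q := by
        rw [hpf]
        exact (Nat.pow_le_pow_left (Fact.out : p.Prime).two_le 6).trans
          (Nat.pow_le_pow_right (Fact.out : p.Prime).pos (by omega))
      have h3 : (q + 4) ^ 3 ≤ 27 * q ^ 2 := by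
        calc (q + 4) ^ 3 ≤ (3 * Nat.card K) ^ 3 := Nat.pow_le_pow_left hb 3
          _ = 27 * q ^ 2 := by rw [mul_pow, hpow]; norm_num
      nlinarith
    · have h4 : Nat.card K ^ 4 ≤ q ^ 2 := hpow ▸ Nat.pow_le_pow_right Nat.card_pos e
      have h2 : Nat.card K * Nat.card K ≤ q := by
        refine Nat.pow_le_pow_iff_left (n := 2) (by norm_num) |>.1 ?_
        calc (Nat.card K * Nat.card K) ^ 2 = Nat.card K ^ 4 := by ring
          _ ≤ q ^ 2 := h4
      nlinarith
  intro z
  have hz : z ∈ K := by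
    have htop : K = ⊤ := IntermediateField.eq_of_le_of_finrank_eq' le_top
      (by rw [hn, IntermediateField.finrank_top])
    rw [htop]; trivial
  rw [← IntermediateField.mem_toSubalgebra, IntermediateField.adjoin_simple_toSubalgebra_of_isAlgebraic
    (Algebra.IsAlgebraic.isAlgebraic η), Algebra.adjoin_singleton_eq_range_aeval] at hz
  obtain ⟨P, hP⟩ := hz
  exact ⟨P.comp (X ^ (q - 1)), by
    rw [aeval_comp, map_pow, aeval_X]
    exact hP⟩

end CfsgLib.SU3Pres
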