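/-
Conjugates of an element under a cyclic group: pairwise commutation from few relations.
-/
import Cfsg.Agent.Lib.SL2Pres.Borel

set_option autoImplicit false

open Polynomial

namespace CfsgLib.SU3Pres

open CfsgLib.SL2Pres

variable {G : Type*} [Group G]

theorem commute_of_zpow {u a : G} (h : ∀ i : ℤ, Commute u (a ^ i * u * (a ^ i)⁻¹)) (k l : ℕ) :
    Commute (a ^ k * u * (a ^ k)⁻¹) (a ^ l * u * (a ^ l)⁻¹) := by
  have := (h ((l : ℤ) - k)).map (MulAut.conj (a ^ k))
  simp only [MulAut.conj_apply] at this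
  rwa [show a ^ k * (a ^ ((l : ℤ) - k) * u * (a ^ ((l : ℤ) - k))⁻¹) * (a ^ k)⁻¹ =
    a ^ l * u * (a ^ l)⁻¹ by group] at this

/-- All conjugates commute when those under a power do and one relation folds back. -/
theorem commute_large {p : ℕ} {u h : G} {i j : ℕ} {P : (ZMod p)[X]}
    (r2 : Commute u (h ^ i * u * (h ^ i)⁻¹))
    (r3 : h ^ j * u * (h ^ j)⁻¹ = u * (h ^ i * u * (h ^ i)⁻¹))
    (r4 : h * u * h⁻¹ = pval u h i P) (k l : ℕ) :
    Commute (h ^ k * u * (h ^ k)⁻¹) (h ^ l * u * (h ^ l)⁻¹) := by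
  set A := h ^ i with hA
  set S : Set G := Set.range fun z : ℤ => A ^ z * u * (A ^ z)⁻¹
  have hlat := commute_lattice ((Commute.refl h).pow_pow i j) r2 r3
  have hS : IsMulCommutative (Subgroup.closure S) := Subgroup.isMulCommutative_closure (by
    rintro _ ⟨y, rfl⟩ _ ⟨z, rfl⟩
    have := (hlat (z - y)).map (MulAut.conj (A ^ y))
    simp only [MulAut.conj_apply] at this
    rwa [show A ^ y * (A ^ (z - y) * u * (A ^ (z - y))⁻¹) * (A ^ y)⁻¹ = A ^ z * u * (A ^ z)⁻¹ by group]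
      at this)
  have hmem : ∀ k : ℕ, h ^ (i * k) * u * (h ^ (i * k))⁻¹ ∈ Subgroup.closure S := fun k =>
    Subgroup.subset_closure ⟨k, by simp only [hA, zpow_natCast, pow_mul]⟩
  have hAinv : ∀ z : ℤ, ∀ x ∈ Subgroup.closure S, A ^ z * x * (A ^ z)⁻¹ ∈ Subgroup.closure S := fun z => by
    refine closure_invariant fun x hx => ?_
    obtain ⟨y, rfl⟩ := hx
    exact Subgroup.subset_closure ⟨z + y, by simp only [zpow_add]; group⟩
  refine commute_of_invariant _ hS (Subgroup.subset_closure ⟨0, by simp⟩)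
    (closure_invariant fun x hx => ?_) k l
  obtain ⟨z, rfl⟩ := hx
  have hc : h * A ^ z = A ^ z * h := ((Commute.refl h).pow_right i).zpow_right z
  rw [show h * (A ^ z * u * (A ^ z)⁻¹) * h⁻¹ = (h * A ^ z) * u * (h * A ^ z)⁻¹ by group, hc,
    show A ^ z * h * u * (A ^ z * h)⁻¹ = A ^ z * (h * u * h⁻¹) * (A ^ z)⁻¹ by group, r4]
  exact hAinv z _ (pval_mem P _ hmem)

/-- All conjugates commute when the first few do and the next is a product of them. -/
theorem commute_small {p : ℕ} {u h : G} {n : ℕ} {P : (ZMod p)[X]} (hP : P.natDegree < n)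
    (r2 : ∀ k, 1 ≤ k → k < n → Commute u (h ^ k * u * (h ^ k)⁻¹))
    (r3 : h ^ n * u * (h ^ n)⁻¹ = pval u h 1 P) (k l : ℕ) :
    Commute (h ^ k * u * (h ^ k)⁻¹) (h ^ l * u * (h ^ l)⁻¹) := by
  set S : Set G := (fun k => h ^ k * u * (h ^ k)⁻¹) '' {k : ℕ | k < n}
  have hle : ∀ a b, a ≤ b → b < n →
      Commute (h ^ a * u * (h ^ a)⁻¹) (h ^ b * u * (h ^ b)⁻¹) := by
    intro a b hab hb
    rcases eq_or_lt_of_le hab with rfl | hlt
    · exact Commute.refl _
    have h1 := (r2 (b - a) (by omega) (by omega)).map (MulAut.conj (h ^ a))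
    simp only [MulAut.conj_apply] at h1
    rwa [show h ^ a * (h ^ (b - a) * u * (h ^ (b - a))⁻¹) * (h ^ a)⁻¹ =
      (h ^ a * h ^ (b - a)) * u * (h ^ a * h ^ (b - a))⁻¹ by group, ← pow_add,
      Nat.add_sub_cancel' hab] at h1
  have hS : IsMulCommutative (Subgroup.closure S) := Subgroup.isMulCommutative_closure (by
    rintro _ ⟨a, ha, rfl⟩ _ ⟨b, hb, rfl⟩
    rcases le_total a b with hab | hab
    · exact hle a b hab hb
    · exact (hle b a hab ha).symm)
  refine commute_of_invariant _ hS (Subgroup.subset_closure ⟨0, by show 0 < n; omega, by simp⟩)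
    (closure_invariant fun x hx => ?_) k l
  obtain ⟨a, ha, rfl⟩ := hx
  rw [show h * (h ^ a * u * (h ^ a)⁻¹) * h⁻¹ = h ^ (a + 1) * u * (h ^ (a + 1))⁻¹ by
    rw [pow_succ']; group]
  by_cases han : a + 1 < n
  · exact Subgroup.subset_closure ⟨a + 1, han, rfl⟩
  rw [show a + 1 = n by have : a < n := ha; omega, r3]
  exact Subgroup.list_prod_mem _ fun x hx => by
    obtain ⟨k, hk, rfl⟩ := List.mem_map.1 hx
    rw [List.mem_range] at hk
    refine pow_mem (Subgroup.subset_closure (k := S) ?_) _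
    exact ⟨k, by show k < n; omega, by simp⟩

theorem ev_pow {p : ℕ} {h : G} (ev : (ZMod p)[X] → G)
    (hmul : ∀ P, ev (X * P) = h * ev P * h⁻¹) (P : (ZMod p)[X]) (k : ℕ) :
    ev (X ^ k * P) = h ^ k * ev P * (h ^ k)⁻¹ := by
  induction k with
  | zero => simp
  | succ k ih => rw [pow_succ', mul_assoc, hmul, ih, pow_succ']; group

theorem ev_zero {p : ℕ} (ev : (ZMod p)[X] → G) (hadd : ∀ P Q, ev (P + Q) = ev P * ev Q) :
    ev 0 = 1 := by
  have := hadd 0 0
  rw [add_zero] at this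
  exact mul_eq_left.1 this.symm

theorem ev_sub_eq_one {p : ℕ} (ev : (ZMod p)[X] → G) (hadd : ∀ P Q, ev (P + Q) = ev P * ev Q)
    {P Q : (ZMod p)[X]} (e : ev P = ev Q) : ev (P - Q) = 1 := by
  have := hadd (P - Q) Q
  rw [sub_add_cancel, e] at this
  exact mul_eq_right.1 this.symm

/-- If a map on polynomials respects addition and kills the minimal polynomial, it only depends on
the value at the root. -/
theorem ev_eq_one_of_aeval {F : Type*} [Field F] {p : ℕ} [Fact p.Prime] [Algebra (ZMod p) F]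
    {h : G} {g : F} (ev : (ZMod p)[X] → G) (hadd : ∀ P Q, ev (P + Q) = ev P * ev Q)
    (hmul : ∀ P, ev (X * P) = h * ev P * h⁻¹) (hM : ev (minpoly (ZMod p) g) = 1)
    {P : (ZMod p)[X]} (hP : aeval g P = 0) : ev P = 1 := by
  obtain ⟨R, rfl⟩ := minpoly.dvd (ZMod p) g hP
  rw [mul_comm]
  exact ev_mul ev hadd hmul hM R

end CfsgLib.SU3Pres
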