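/-
A group with a few relations on two elements receives the upper triangular subgroup of `SU₃`.
-/
import Cfsg.Agent.Lib.SU3Pres.Fields
import Cfsg.Agent.Lib.SU3Pres.Span

set_option autoImplicit false
set_option linter.unusedSectionVars false

open Matrix Polynomial
open scoped commutatorElement
open CfsgLib.Amalgams CfsgLib.SL2Pres

namespace CfsgLib.SU3Pres

variable {F : Type*} [Field F] [Finite F] {σ : F →+* F} {q : ℕ} (h : UniField F σ q)
  {p : ℕ} [Fact p.Prime] [Algebra (ZMod p) F]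

/-- A conjugate under a power. -/
def cj {G : Type*} [Group G] (hh : G) (k : ℕ) (x : G) : G := hh ^ k * x * (hh ^ k)⁻¹

include h in
/-- The upper triangular subgroup is generated by a regular unipotent, a long root element and the
torus generator. -/
theorem bor_le {ω : Fˣ} (hω : orderOf ω = q ^ 2 - 1) (hq : 4 ≤ q) (H : Subgroup (suAnti σ))
    {t₀ : Tp σ} (ht₀ : t₀.1.1 = 1) {δ : F} (hδ : σ δ = -δ) (hδ0 : δ ≠ 0) (hu : uT h t₀ ∈ H)
    (hd : dT h ω ∈ H) (hz : uT h (zP δ hδ) ∈ H) : Bor σ ≤ H := by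
  have hdall : ∀ l, dT h l ∈ H := fun l => by
    obtain ⟨k, rfl⟩ := exists_pow_omega h hω l
    rw [map_pow]; exact pow_mem hd k
  have hact : ∀ (l : Fˣ) t, uT h t ∈ H → uT h (tact h l t) ∈ H := fun l t ht => by
    rw [← dT_uT]; exact mul_mem (mul_mem (hdall l) ht) (inv_mem (hdall l))
  have hzall : ∀ t : Tp σ, t.1.1 = 0 → uT h t ∈ H := by
    intro t ht
    rcases eq_or_ne t.1.2 0 with hc | hc
    · have e : uT h t = 1 := by
        apply mat₃_injective σ
        rw [mat_uT, map_one]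
        ext i j
        fin_cases i <;> fin_cases j <;> simp [uMat₃, ht, hc]
      rw [e]; exact one_mem H
    have hsk : σ t.1.2 = -t.1.2 := by
      have := t.2
      rw [ht, zero_mul, add_zero] at this
      linear_combination this
    obtain ⟨l, hl⟩ := h.exists_norm (a := t.1.2 / δ) (by rw [map_div₀, hsk, hδ, neg_div_neg_eq])
    have hl0 : l ≠ 0 := fun e => div_ne_zero hc hδ0 (by rw [← hl, e, zero_mul])
    have e : tact h (Units.mk0 l hl0) (zP δ hδ) = t := by
      refine Subtype.ext (Prod.ext ?_ ?_)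
      · show muF σ _ * (0 : F) = t.1.1
        rw [mul_zero, ht]
      · show nuF σ _ * δ = t.1.2
        rw [nuF, Units.val_mk0, hl, div_mul_cancel₀ _ hδ0]
    rw [← e]; exact hact _ _ hz
  let A : AddSubmonoid F :=
    { carrier := {b | ∃ t : Tp σ, t.1.1 = b ∧ uT h t ∈ H}
      zero_mem' := ⟨⟨(0, 0), by simp⟩, rfl, hzall _ rfl⟩
      add_mem' := by
        rintro _ _ ⟨t, rfl, ht⟩ ⟨t', rfl, ht'⟩
        exact ⟨tmul h t t', rfl, by rw [← uT_mul]; exact mul_mem ht ht'⟩ }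
  have hA : A = ⊤ := by
    have := Fintype.ofFinite F
    refine SL3Pres.eq_top_of_mul_cube_mem ?_ A ⟨t₀, ht₀, hu⟩ fun s a hs ha => ?_
    · rw [← Nat.card_eq_fintype_card, h.card]
      have := Nat.mul_le_mul hq hq
      rw [sq]; omega
    · obtain ⟨t, rfl, ht⟩ := ha
      refine ⟨tact h (Units.mk0 s hs * sU σ (Units.mk0 s hs) ^ 2) t, ?_, hact _ _ ht⟩
      show muF σ _ * t.1.1 = _
      rw [muF_cube h, Units.val_mk0]
  intro g hg
  obtain ⟨t, l, rfl⟩ := exists_ud h hg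
  refine mul_mem ?_ (hdall l)
  obtain ⟨t', ht', ht'H⟩ : t.1.1 ∈ A := hA ▸ trivial
  have hdiff : uT h (tmul h (tinv h t') t) ∈ H := hzall _ (by
    show -t'.1.1 + t.1.1 = 0
    rw [ht', neg_add_cancel])
  rw [← uT_mul, uT_tinv] at hdiff
  simpa using mul_mem ht'H hdiff

/-- The relations on the two generators. -/
structure Rels (ω : Fˣ) (t₀ : Tp σ) {δ : F} (hδ : σ δ = -δ) {G : Type*} [Group G] (π : G →* suAnti σ)
    (p : ℕ) [Fact p.Prime] [Algebra (ZMod p) F] where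
  u : G
  hh : G
  z : G
  πu : π u = uT h t₀
  πh : π hh = dT h ω
  πz : π z = uT h (zP δ hδ)
  zmem : z ∈ Subgroup.closure ({u, hh} : Set G)
  hord : hh ^ (q ^ 2 - 1) = 1
  zp : z ^ p = 1
  zcomm : Commute z (cj hh 1 z)
  zsplit : ∃ j, cj hh j z = z * cj hh 1 z
  zmin : pval z hh 1 (minpoly (ZMod p) (nuF σ ω)) = 1
  cu : ∀ k, k < 3 → Commute z (cj hh k u)
  ck : Commute z (hh ^ (q - 1))
  cspan : cj hh 3 u ∈ Subgroup.closure
    ({u, cj hh 1 u, cj hh 2 u, hh ^ (q - 1)} ∪ Set.range fun k : ℕ => cj hh k z)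
  up : u ^ p ∈ Subgroup.closure (Set.range fun k : ℕ => cj hh k z)
  ucert :
    (∃ (i j : ℕ) (P : (ZMod p)[X]),
      ⁅u, cj hh i u⁆ ∈ Subgroup.closure (Set.range fun k : ℕ => cj hh k z) ∧
      (cj hh j u)⁻¹ * (u * cj hh i u) ∈ Subgroup.closure (Set.range fun k : ℕ => cj hh k z) ∧
      (hh * u * hh⁻¹)⁻¹ * pval u hh i P ∈ Subgroup.closure (Set.range fun k : ℕ => cj hh k z) ∧
      pval u hh 1 (minpoly (ZMod p) (muF σ ω)) ∈ Subgroup.closure (Set.range fun k : ℕ => cj hh k z)) ∨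
    ((∀ k, 1 ≤ k → k < (minpoly (ZMod p) (muF σ ω)).natDegree →
        ⁅u, cj hh k u⁆ ∈ Subgroup.closure (Set.range fun k : ℕ => cj hh k z)) ∧
      (cj hh (minpoly (ZMod p) (muF σ ω)).natDegree u)⁻¹ *
          pval u hh 1 (X ^ (minpoly (ZMod p) (muF σ ω)).natDegree - minpoly (ZMod p) (muF σ ω)) ∈
        Subgroup.closure (Set.range fun k : ℕ => cj hh k z))

theorem v2_mul (a b : F) : !![(1 : F), a; 0, 1] * !![1, b; 0, 1] = !![1, a + b; 0, 1] := by
  ext i j; fin_cases i <;> fin_cases j <;> simp [Matrix.mul_apply, Fin.sum_univ_two, add_comm]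

variable {ω : Fˣ} {t₀ : Tp σ} {δ : F} {hδ : σ δ = -δ} {G : Type*} [Group G] {π : G →* suAnti σ}

namespace Rels

variable {h} (R : Rels h ω t₀ hδ π p)

/-- The long root subgroup. -/
def Zs : Subgroup G := Subgroup.closure (Set.range fun k : ℕ => cj R.hh k R.z)

/-- The Borel subgroup. -/
def Bs : Subgroup G := Subgroup.closure ({R.u, R.hh} : Set G)

theorem u_mem : R.u ∈ R.Bs := Subgroup.subset_closure (Set.mem_insert _ _)

theorem hh_mem : R.hh ∈ R.Bs := Subgroup.subset_closure (Or.inr rfl)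

include R

theorem q_two : 1 ≤ q ^ 2 - 1 := by
  have := h.one_lt
  have : 2 * 2 ≤ q ^ 2 := by rw [sq]; exact Nat.mul_le_mul this this
  omega

theorem hh_pow_mul (n : ℕ) : R.hh ^ ((q ^ 2 - 1) * n) = 1 := by rw [pow_mul, R.hord, one_pow]

theorem hh_inv : R.hh⁻¹ = R.hh ^ (q ^ 2 - 1 - 1) := by
  refine inv_eq_of_mul_eq_one_right ?_
  rw [← pow_succ', Nat.sub_add_cancel R.q_two, R.hord]

theorem exists_evz : ∃ ev : (ZMod p)[X] → G, (∀ P Q, ev (P + Q) = ev P * ev Q) ∧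
    (∀ P, ev (X * P) = R.hh * ev P * R.hh⁻¹) ∧ (∀ P Q, Commute (ev P) (ev Q)) ∧ ev 1 = R.z ∧
    ev (minpoly (ZMod p) (nuF σ ω)) = 1 ∧ ∀ x ∈ R.Zs, ∃ P, ev P = x := by
  obtain ⟨j, hj⟩ := R.zsplit
  have h1 : cj R.hh 1 R.z = R.hh * R.z * R.hh⁻¹ := by rw [cj, pow_one]
  have hlat := commute_lattice ((Commute.refl R.hh).pow_right j) (h1 ▸ R.zcomm) (h1 ▸ hj)
  obtain ⟨ev, hadd, hmul, hcomm, hone, hpv⟩ := exists_ev R.zp (commute_of_zpow hlat)
  have hM : ev (minpoly (ZMod p) (nuF σ ω)) = 1 := by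
    have := R.zmin
    rwa [hpv, pow_one, Polynomial.comp_X] at this
  refine ⟨ev, hadd, hmul, hcomm, hone, hM, fun x hx => ?_⟩
  induction hx using Subgroup.closure_induction with
  | mem y hy =>
    obtain ⟨k, rfl⟩ := hy
    exact ⟨X ^ k, by rw [← mul_one (X ^ k : (ZMod p)[X]), ev_pow ev hmul, hone]; rfl⟩
  | one => exact ⟨0, ev_zero ev hadd⟩
  | mul a b _ _ ia ib =>
    obtain ⟨P, rfl⟩ := ia
    obtain ⟨Q, rfl⟩ := ib
    exact ⟨P + Q, hadd P Q⟩
  | inv a _ ia =>
    obtain ⟨P, rfl⟩ := ia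
    exact ⟨-P, eq_inv_of_mul_eq_one_right (by rw [← hadd, add_neg_cancel, ev_zero ev hadd])⟩

theorem conj_hh_mem {x : G} (hx : x ∈ R.Zs) : R.hh * x * R.hh⁻¹ ∈ R.Zs :=
  closure_invariant (fun y hy => by
    obtain ⟨k, rfl⟩ := hy
    exact Subgroup.subset_closure ⟨k + 1, by simp only [cj, pow_succ']; group⟩) x hx

theorem conj_pow_mem {x : G} (hx : x ∈ R.Zs) (k : ℕ) : cj R.hh k x ∈ R.Zs := by
  induction k with
  | zero => simpa [cj] using hx
  | succ k ih =>
    have := R.conj_hh_mem ih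
    convert this using 1
    simp only [cj, pow_succ']; group

theorem z_mem_Zs : R.z ∈ R.Zs := Subgroup.subset_closure ⟨0, by simp [cj]⟩

theorem comm_z_cj_u (n : ℕ) : Commute R.z (cj R.hh n R.u) := by
  obtain ⟨ev, hadd, hmul, hcomm, hone, -, hZ⟩ := R.exists_evz
  set S : Set G := {R.u, cj R.hh 1 R.u, cj R.hh 2 R.u, R.hh ^ (q - 1)} ∪
    Set.range fun k : ℕ => cj R.hh k R.z
  have hle : Subgroup.closure S ≤ Subgroup.centralizer ({R.z} : Set G) := by
    refine (Subgroup.closure_le _).2 fun x hx => Subgroup.mem_centralizer_iff.2 ?_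
    rintro _ rfl
    rcases hx with (rfl | rfl | rfl | rfl) | hk
    · simpa [cj] using (R.cu 0 (by norm_num)).eq
    · exact (R.cu 1 (by norm_num)).eq
    · exact (R.cu 2 (by norm_num)).eq
    · exact R.ck.eq
    · obtain ⟨P, rfl⟩ := hZ x (Subgroup.subset_closure hk)
      rw [← hone]
      exact (hcomm 1 P).eq
  have hinv : ∀ x ∈ Subgroup.closure S, R.hh * x * R.hh⁻¹ ∈ Subgroup.closure S := by
    refine closure_invariant fun x hx => ?_
    rcases hx with (rfl | rfl | rfl | rfl) | ⟨k, rfl⟩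
    · exact Subgroup.subset_closure (Or.inl (Or.inr (Or.inl (by simp [cj]))))
    · refine Subgroup.subset_closure (Or.inl (Or.inr (Or.inr (Or.inl ?_))))
      simp only [cj]; group
    · have h3 : R.hh * cj R.hh 2 R.u * R.hh⁻¹ = cj R.hh 3 R.u := by simp only [cj]; group
      rw [h3]; exact R.cspan
    · rw [((Commute.refl R.hh).pow_right (q - 1)).eq, mul_inv_cancel_right]
      exact Subgroup.subset_closure (Or.inl (by simp))
    · exact Subgroup.subset_closure (Or.inr ⟨k + 1, by simp only [cj, pow_succ']; group⟩)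
  have hn : ∀ n, cj R.hh n R.u ∈ Subgroup.closure S := fun n => by
    induction n with
    | zero => exact Subgroup.subset_closure (Or.inl (Or.inl (by simp [cj])))
    | succ n ih =>
      have := hinv _ ih
      convert this using 1
      simp only [cj, pow_succ']; group
  exact Subgroup.mem_centralizer_iff.1 (hle (hn n)) R.z rfl

theorem comm_u_Zs {x : G} (hx : x ∈ R.Zs) : Commute R.u x := by
  suffices R.Zs ≤ Subgroup.centralizer ({R.u} : Set G) from
    Subgroup.mem_centralizer_iff.1 (this hx) R.u rfl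
  refine (Subgroup.closure_le _).2 ?_
  rintro _ ⟨k, rfl⟩
  refine Subgroup.mem_centralizer_iff.2 ?_
  rintro _ rfl
  set m := (q ^ 2 - 1) * k - k
  have hm : k + m = (q ^ 2 - 1) * k := Nat.add_sub_cancel' (Nat.le_mul_of_pos_left k R.q_two)
  have := (R.comm_z_cj_u m).map (MulAut.conj (R.hh ^ k))
  simp only [MulAut.conj_apply] at this
  rw [show R.hh ^ k * cj R.hh m R.u * (R.hh ^ k)⁻¹ =
      (R.hh ^ k * R.hh ^ m) * R.u * (R.hh ^ k * R.hh ^ m)⁻¹ by simp only [cj]; group,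
    ← pow_add, hm, R.hh_pow_mul, one_mul, inv_one, mul_one] at this
  exact this.eq.symm

theorem normal_Zs : (R.Zs.subgroupOf R.Bs).Normal := by
  suffices hnorm : ∀ g ∈ R.Bs, ∀ x ∈ R.Zs, g * x * g⁻¹ ∈ R.Zs from
    ⟨fun x hx g => hnorm g g.2 x hx⟩
  intro g hg
  induction hg using Subgroup.closure_induction_right with
  | one => intro x hx; simpa using hx
  | mul_right a _ b hb ia =>
    intro x hx
    rw [show a * b * x * (a * b)⁻¹ = a * (b * x * b⁻¹) * a⁻¹ by group]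
    rcases hb with hb | hb
    · subst hb
      rw [(R.comm_u_Zs hx).eq, mul_inv_cancel_right]
      exact ia x hx
    · rw [Set.mem_singleton_iff.1 hb]
      exact ia _ (R.conj_hh_mem hx)
  | mul_inv_cancel a _ b hb ia =>
    intro x hx
    rw [show a * b⁻¹ * x * (a * b⁻¹)⁻¹ = a * (b⁻¹ * x * b⁻¹⁻¹) * a⁻¹ by group]
    rcases hb with hb | hb
    · subst hb
      rw [(R.comm_u_Zs hx).inv_left.eq, mul_inv_cancel_right]
      exact ia x hx
    · rw [Set.mem_singleton_iff.1 hb, R.hh_inv]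
      exact ia _ (R.conj_pow_mem hx _)

theorem π_evz {ev : (ZMod p)[X] → G} (hadd : ∀ P Q, ev (P + Q) = ev P * ev Q)
    (hmul : ∀ P, ev (X * P) = R.hh * ev P * R.hh⁻¹) (hone : ev 1 = R.z) (P : (ZMod p)[X]) :
    ∃ t : Tp σ, π (ev P) = uT h t ∧ t.1.1 = 0 ∧ t.1.2 = δ * aeval (nuF σ ω) P := by
  induction P using Polynomial.induction_on' with
  | add A B iA iB =>
    obtain ⟨t, ht, ht1, ht2⟩ := iA
    obtain ⟨t', ht', ht1', ht2'⟩ := iB
    refine ⟨tmul h t t', by rw [hadd, map_mul, ht, ht', uT_mul], ?_, ?_⟩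
    · show t.1.1 + t'.1.1 = 0
      rw [ht1, ht1', add_zero]
    · show t.1.2 + t'.1.2 - σ t.1.1 * t'.1.1 = _
      rw [ht1, ht1', mul_zero, sub_zero, ht2, ht2', map_add, mul_add]
  | monomial k c =>
    have hbase : ∀ n : ℕ, ∃ t : Tp σ, π (ev (n : (ZMod p)[X])) = uT h t ∧ t.1.1 = 0 ∧
        t.1.2 = δ * (n : F) := fun n => by
      induction n with
      | zero =>
        refine ⟨⟨(0, 0), by simp⟩, ?_, rfl, by simp⟩
        rw [Nat.cast_zero, ev_zero ev hadd, map_one]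
        apply mat₃_injective σ
        rw [mat_uT, map_one]
        ext i j
        fin_cases i <;> fin_cases j <;> simp [uMat₃]
      | succ n ih =>
        obtain ⟨t, ht, ht1, ht2⟩ := ih
        refine ⟨tmul h t (zP δ hδ), ?_, ?_, ?_⟩
        · rw [Nat.cast_succ, hadd, hone, map_mul, ht, R.πz, uT_mul]
        · show t.1.1 + 0 = 0
          rw [ht1, add_zero]
        · show t.1.2 + δ - σ t.1.1 * 0 = _
          rw [ht2, Nat.cast_succ]; ring
    obtain ⟨n, rfl⟩ : ∃ n : ℕ, (n : ZMod p) = c := ⟨c.val, ZMod.natCast_zmod_val c⟩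
    obtain ⟨t, ht, ht1, ht2⟩ := hbase n
    refine ⟨tact h (ω ^ k) t, ?_, ?_, ?_⟩
    · rw [← C_mul_X_pow_eq_monomial, mul_comm, ev_pow ev hmul,
        map_natCast, map_mul, map_mul, map_inv, map_pow, R.πh, ht,
        ← map_pow, dT_uT]
    · show muF σ _ * t.1.1 = 0
      rw [ht1, mul_zero]
    · show nuF σ (ω ^ k) * t.1.2 = _
      rw [ht2, ← C_mul_X_pow_eq_monomial, map_mul, map_pow, aeval_X, nuF_pow,
        map_natCast, map_natCast]
      ring

theorem ker_Zs (hδ0 : δ ≠ 0) {x : G} (hx : x ∈ R.Zs) (h1 : π x = 1) : x = 1 := by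
  obtain ⟨ev, hadd, hmul, -, hone, hM, hZ⟩ := R.exists_evz
  obtain ⟨P, rfl⟩ := hZ x hx
  obtain ⟨t, ht, ht1, ht2⟩ := R.π_evz hadd hmul hone P
  rw [ht] at h1
  have e := congrFun (congrFun (congrArg (mat₃ σ) h1) 0) 2
  rw [mat_uT, map_one] at e
  simp [uMat₃, ht2, hδ0] at e
  exact ev_eq_one_of_aeval ev hadd hmul hM e

theorem Bs_le : R.Bs ≤ (Bor σ).comap π := by
  refine (Subgroup.closure_le _).2 ?_
  rintro x (rfl | rfl)
  · show π R.u ∈ Bor σ
    rw [R.πu]; exact uT_mem_Bor h _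
  · show π R.hh ∈ Bor σ
    rw [R.πh]; exact dT_mem_Bor h _

theorem Zs_le : R.Zs ≤ R.Bs := by
  refine (Subgroup.closure_le _).2 ?_
  rintro _ ⟨k, rfl⟩
  exact mul_mem (mul_mem (pow_mem R.hh_mem k) R.zmem) (inv_mem (pow_mem R.hh_mem k))

/-- The image modulo the long root group. -/
noncomputable def rho : R.Bs →* Matrix (Fin 2) (Fin 2) F :=
  (rhoB σ).comp ((π.comp R.Bs.subtype).codRestrict (Bor σ) fun x => R.Bs_le x.2)

theorem rho_apply (x : R.Bs) : R.rho x = blk (mat₃ σ (π (x : G))) := rfl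

theorem ker_Bs (hω : orderOf ω = q ^ 2 - 1) (ht₀ : t₀.1.1 = 1) (hδ0 : δ ≠ 0) :
    ∀ x : G, x ∈ R.Bs → π x = 1 → x = 1 := by
  obtain ⟨evz, hzadd, hzmul, -, hzone, -, hZ⟩ := R.exists_evz
  haveI := R.normal_Zs
  set N := R.Zs.subgroupOf R.Bs
  set mk : R.Bs →* R.Bs ⧸ N := QuotientGroup.mk' N
  have hN : N ≤ R.rho.ker := fun x hx => by
    obtain ⟨P, hP⟩ := hZ _ hx
    obtain ⟨t, ht, ht1, -⟩ := R.π_evz hzadd hzmul hzone P
    show blk (mat₃ σ (π (x : G))) = 1
    rw [← show evz P = (x : G) from hP, ht, mat_uT]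
    ext i j
    fin_cases i <;> fin_cases j <;> simp [blk, uMat₃, ht1]
  let ρ : R.Bs ⧸ N →* Matrix (Fin 2) (Fin 2) F := QuotientGroup.lift N R.rho hN
  set uB : R.Bs := ⟨R.u, R.u_mem⟩
  set hB : R.Bs := ⟨R.hh, R.hh_mem⟩
  set ub := mk uB
  set hb := mk hB
  have h1 : ∀ x : R.Bs, (x : G) ∈ R.Zs → mk x = 1 := fun x hx => (QuotientGroup.eq_one_iff x).2 hx
  have hpv : ∀ (i : ℕ) (P : (ZMod p)[X]), (R.Bs.subtype (pval uB hB i P) : G) = pval R.u R.hh i P := fun i P => map_pval _ _ _ _ _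
  have hcj : ∀ k, (hB ^ k * uB * (hB ^ k)⁻¹ : R.Bs) = (⟨cj R.hh k R.u,
      mul_mem (mul_mem (pow_mem R.hh_mem k) R.u_mem) (inv_mem (pow_mem R.hh_mem k))⟩ : R.Bs) :=
    fun k => Subtype.ext rfl
  have hcommk : ∀ k, ⁅R.u, cj R.hh k R.u⁆ ∈ R.Zs → Commute ub (hb ^ k * ub * (hb ^ k)⁻¹) := by
    intro k hk
    have := h1 ⁅uB, hB ^ k * uB * (hB ^ k)⁻¹⁆ hk
    rw [map_commutatorElement] at this
    simpa using commutatorElement_eq_one_iff_commute.1 this
  have hfold : ∀ (k i : ℕ) (P : (ZMod p)[X]), (cj R.hh k R.u)⁻¹ * pval R.u R.hh i P ∈ R.Zs →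
      hb ^ k * ub * (hb ^ k)⁻¹ = pval ub hb i P := by
    intro k i P hk
    have := h1 ((hB ^ k * uB * (hB ^ k)⁻¹)⁻¹ * pval uB hB i P)
      (by rw [Subgroup.coe_mul, ← R.Bs.subtype_apply (pval uB hB i P), hpv]; exact hk)
    rw [map_mul, map_inv, inv_mul_eq_one, map_pval] at this
    simpa using this
  have hup : ub ^ p = 1 := by
    rw [← map_pow]
    exact h1 _ R.up
  set g := muF σ ω
  set M := minpoly (ZMod p) g
  have hMmonic : M.Monic := minpoly.monic (IsIntegral.of_finite (ZMod p) g)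
  have hMpos : 0 < M.natDegree := minpoly.natDegree_pos (IsIntegral.of_finite (ZMod p) g)
  have hcert : (∀ k l, Commute (hb ^ k * ub * (hb ^ k)⁻¹) (hb ^ l * ub * (hb ^ l)⁻¹)) ∧
      ∀ ev : (ZMod p)[X] → R.Bs ⧸ N, (∀ P Q, ev (P + Q) = ev P * ev Q) →
        (∀ P, ev (X * P) = hb * ev P * hb⁻¹) → ev 1 = ub →
        (∀ i P, pval ub hb i P = ev (P.comp (X ^ i))) → ev M = 1 := by
    rcases R.ucert with ⟨i, j, P, r2, r3, r4, r5⟩ | ⟨r2, r3⟩
    · refine ⟨commute_large (p := p) (j := j) (P := P) (hcommk i r2) ?_ ?_, fun ev _ _ _ hp' => ?_⟩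
      · have := h1 ((hB ^ j * uB * (hB ^ j)⁻¹)⁻¹ * (uB * (hB ^ i * uB * (hB ^ i)⁻¹))) r3
        rw [map_mul, map_inv, inv_mul_eq_one] at this
        simpa using this
      · have := hfold 1 i P (by rw [show cj R.hh 1 R.u = R.hh * R.u * R.hh⁻¹ by rw [cj, pow_one]]; exact r4)
        simpa using this
      · have := h1 (pval uB hB 1 M) (by rw [← R.Bs.subtype_apply, hpv]; exact r5)
        rwa [map_pval, hp', pow_one, Polynomial.comp_X] at this
    · have hdeg : (X ^ M.natDegree - M).natDegree < M.natDegree := by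
        rcases eq_or_ne (X ^ M.natDegree - M) 0 with e | e
        · rw [e, natDegree_zero]; exact hMpos
        refine natDegree_lt_natDegree e ((degree_sub_lt_left ?_ (monic_X_pow _).ne_zero ?_).trans_le ?_)
        · rw [degree_X_pow, degree_eq_natDegree hMmonic.ne_zero]
        · rw [(monic_X_pow _).leadingCoeff, hMmonic.leadingCoeff]
        · rw [degree_X_pow, degree_eq_natDegree hMmonic.ne_zero]
      have r3' := hfold _ 1 _ r3
      refine ⟨commute_small hdeg (fun k hk hk' => hcommk k (r2 k hk hk')) r3',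
        fun ev hadd hmul hone hp' => ?_⟩
      rw [hp', pow_one, Polynomial.comp_X] at r3'
      have hk := ev_pow ev hmul 1 M.natDegree
      rw [mul_one, hone, r3'] at hk
      have := ev_sub_eq_one ev hadd hk
      rwa [sub_sub_cancel] at this
  obtain ⟨evu, hadd, hmul, -, hone, hpv'⟩ := exists_ev hup hcert.1
  have hM : evu M = 1 := hcert.2 evu hadd hmul hone hpv'
  have hneg : ∀ P, evu (-P) = (evu P)⁻¹ := fun P =>
    eq_inv_of_mul_eq_one_right (by rw [← hadd, add_neg_cancel, ev_zero evu hadd])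
  have hbord : hb ^ (q ^ 2 - 1) = 1 := by
    rw [← map_pow]
    exact h1 _ (by rw [SubgroupClass.coe_pow]; show R.hh ^ (q ^ 2 - 1) ∈ R.Zs; rw [R.hord]; exact one_mem _)
  have hmove : ∀ (k : ℕ) P, hb ^ k * evu P = evu (X ^ k * P) * hb ^ k := fun k P => by
    rw [ev_pow evu hmul, inv_mul_cancel_right]
  have hall : ∀ x : R.Bs, ∃ P k, mk x = evu P * hb ^ k := by
    rintro ⟨x, hx⟩
    induction hx using Subgroup.closure_induction_right with
    | one => exact ⟨0, 0, by rw [ev_zero evu hadd, pow_zero, one_mul]; exact map_one mk⟩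
    | mul_right a ha b hb' ia =>
      obtain ⟨P, k, e⟩ := ia
      have e' : mk ⟨a * b, mul_mem ha (Subgroup.subset_closure hb')⟩ =
          evu P * hb ^ k * mk ⟨b, Subgroup.subset_closure hb'⟩ := by
        rw [← e, ← map_mul]; rfl
      rcases hb' with hb' | hb'
      · subst hb'
        refine ⟨P + X ^ k, k, e'.trans ?_⟩
        show evu P * hb ^ k * ub = _
        rw [← hone, mul_assoc, hmove, mul_one, ← mul_assoc, ← hadd]
      · rw [Set.mem_singleton_iff] at hb'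
        subst hb'
        refine ⟨P, k + 1, e'.trans ?_⟩
        show evu P * hb ^ k * hb = _
        rw [pow_succ, mul_assoc]
    | mul_inv_cancel a ha b hb' ia =>
      obtain ⟨P, k, e⟩ := ia
      have e' : mk ⟨a * b⁻¹, mul_mem ha (inv_mem (Subgroup.subset_closure hb'))⟩ =
          evu P * hb ^ k * (mk ⟨b, Subgroup.subset_closure hb'⟩)⁻¹ := by
        rw [← e, ← map_inv, ← map_mul]; rfl
      rcases hb' with hb' | hb'
      · subst hb'
        refine ⟨P + X ^ k * (-1), k, e'.trans ?_⟩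
        show evu P * hb ^ k * ub⁻¹ = _
        rw [← hone, ← hneg, mul_assoc, hmove, ← mul_assoc, ← hadd]
      · rw [Set.mem_singleton_iff] at hb'
        subst hb'
        refine ⟨P, k + (q ^ 2 - 1 - 1), e'.trans ?_⟩
        show evu P * hb ^ k * hb⁻¹ = _
        rw [pow_add, mul_assoc]
        congr 2
        refine inv_eq_of_mul_eq_one_right ?_
        rw [← pow_succ', Nat.sub_add_cancel R.q_two, hbord]
  have hρu : ρ ub = !![(1 : F), 1; 0, 1] := by
    show blk (mat₃ σ (π R.u)) = _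
    rw [R.πu, mat_uT]
    ext i j
    fin_cases i <;> fin_cases j <;> simp [blk, uMat₃, ht₀]
  have hρh : ∀ k, ρ (hb ^ k) =
      !![σ ((ω ^ k : Fˣ) : F) / ((ω ^ k : Fˣ) : F), 0; 0, (σ ((ω ^ k : Fˣ) : F))⁻¹] := fun k => by
    rw [← map_pow]
    show blk (mat₃ σ (π (((hB ^ k : R.Bs)) : G))) = _
    rw [SubgroupClass.coe_pow, map_pow, R.πh, ← map_pow, mat_dT]
    ext i j
    fin_cases i <;> fin_cases j <;> simp [blk, dMat₃]
  have hρhi : ρ hb⁻¹ = !![σ ((ω⁻¹ : Fˣ) : F) / ((ω⁻¹ : Fˣ) : F), 0; 0, (σ ((ω⁻¹ : Fˣ) : F))⁻¹] := by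
    rw [← map_inv]
    show blk (mat₃ σ (π (((hB⁻¹ : R.Bs)) : G))) = _
    rw [Subgroup.coe_inv, map_inv, R.πh, ← map_inv, mat_dT]
    ext i j
    fin_cases i <;> fin_cases j <;> simp [blk, dMat₃]
  have hρ : ∀ P, ρ (evu P) = !![(1 : F), aeval g P; 0, 1] := by
    intro P
    induction P using Polynomial.induction_on with
    | C c =>
      have h0 : ∀ n : ℕ, ρ (evu (n : (ZMod p)[X])) = !![(1 : F), (n : F); 0, 1] := fun n => by
        induction n with
        | zero =>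
          rw [Nat.cast_zero, ev_zero evu hadd, map_one]
          ext i j; fin_cases i <;> fin_cases j <;> simp
        | succ n ih => rw [Nat.cast_succ, hadd, hone, map_mul, ih, hρu, v2_mul, Nat.cast_succ]
      rw [← ZMod.natCast_zmod_val c, map_natCast, h0, map_natCast]
    | add A B iA iB => rw [hadd, map_mul, iA, iB, v2_mul, map_add]
    | monomial n c ih =>
      rw [pow_succ', show C c * (X * X ^ n) = (X : (ZMod p)[X]) * (C c * X ^ n) by ring, hmul,
        map_mul, map_mul, ih, hρhi, show ρ hb = ρ (hb ^ 1) by rw [pow_one], hρh]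
      simp only [map_mul, aeval_X]
      have h0 : (ω : F) ≠ 0 := ω.ne_zero
      have h1 : σ (ω : F) ≠ 0 := by simp
      ext i j
      fin_cases i <;> fin_cases j <;>
        simp [Matrix.mul_apply, Fin.sum_univ_two, g, muF] <;> field_simp
  intro x hx hπx
  obtain ⟨P, k, e⟩ := hall ⟨x, hx⟩
  have hone' : ρ (evu P * hb ^ k) = 1 := by
    rw [← e]
    show blk (mat₃ σ (π x)) = 1
    rw [hπx, map_one]
    ext i j
    fin_cases i <;> fin_cases j <;> simp [blk]
  rw [map_mul, hρ, hρh] at hone'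
  have e11 := congrFun (congrFun hone' 1) 1
  have e01 := congrFun (congrFun hone' 0) 1
  simp [Matrix.mul_apply, Fin.sum_univ_two] at e11 e01
  have hωk : ω ^ k = 1 := Units.ext (by
    have h2 := congrArg σ e11
    rw [map_one, map_pow, h.conj_conj] at h2
    simpa using h2)
  obtain ⟨m, rfl⟩ := (hω ▸ orderOf_dvd_of_pow_eq_one hωk : q ^ 2 - 1 ∣ k)
  rw [pow_mul, hbord, one_pow, mul_one] at e
  have hP : aeval g P = 0 := e01
  rw [ev_eq_one_of_aeval evu hadd hmul hM hP] at e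
  exact R.ker_Zs hδ0 ((QuotientGroup.eq_one_iff (N := N) _).1 e) hπx

/-- The upper triangular subgroup of the model maps onto the subgroup of the two generators. -/
theorem exists_phi (hω : orderOf ω = q ^ 2 - 1) (hq : 4 ≤ q) (ht₀ : t₀.1.1 = 1) (hδ0 : δ ≠ 0) :
    ∃ φ : Bor σ →* G, (∀ b, π (φ b) = b) ∧ φ.range = R.Bs := by
  set f : R.Bs →* Bor σ := (π.comp R.Bs.subtype).codRestrict (Bor σ) fun x => R.Bs_le x.2
  have hinj : Function.Injective f := (injective_iff_map_eq_one f).2 fun x hx =>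
    Subtype.ext (R.ker_Bs hω ht₀ hδ0 x.1 x.2 (congrArg Subtype.val hx))
  have hsurj : Function.Surjective f := by
    intro b
    have hle := bor_le h hω hq (R.Bs.map π) ht₀ hδ hδ0 ⟨R.u, R.u_mem, R.πu⟩ ⟨R.hh, R.hh_mem, R.πh⟩
      ⟨R.z, R.zmem, R.πz⟩
    obtain ⟨x, hx, e⟩ := hle b.2
    exact ⟨⟨x, hx⟩, Subtype.ext e⟩
  set e := MulEquiv.ofBijective f ⟨hinj, hsurj⟩
  refine ⟨R.Bs.subtype.comp e.symm.toMonoidHom, fun b => ?_, ?_⟩
  · exact congrArg Subtype.val (e.apply_symm_apply b)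
  · rw [MonoidHom.range_comp, MonoidHom.range_eq_top.2 e.symm.surjective, ← MonoidHom.range_eq_map,
      Subgroup.range_subtype]

end Rels

end CfsgLib.SU3Pres
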