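/-
A group generated by a copy of the upper triangular subgroup and one involution, with finitely many
Bruhat relations, is `SU₃`.
-/
import Cfsg.Agent.Lib.SU3Pres.Fields

set_option autoImplicit false
set_option linter.unusedSectionVars false

open Matrix
open CfsgLib.Amalgams

namespace CfsgLib.SU3Pres

variable {F : Type*} [Field F] [Finite F] {σ : F →+* F} {q : ℕ} (h : UniField F σ q)

theorem tp_ext {t t' : Tp σ} (h1 : t.1.1 = t'.1.1) (h2 : t.1.2 = t'.1.2) : t = t' :=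
  Subtype.ext (Prod.ext h1 h2)

/-- A unipotent element of the upper triangular subgroup. -/
noncomputable def uB (t : Tp σ) : Bor σ := ⟨uT h t, uT_mem_Bor h t⟩

/-- The torus in the upper triangular subgroup. -/
noncomputable def dB : Fˣ →* Bor σ := (dT h).codRestrict (Bor σ) (dT_mem_Bor h)

include h

theorem coe_uB (t : Tp σ) : (uB h t : suAnti σ) = uT h t := rfl

theorem coe_dB (l : Fˣ) : (dB h l : suAnti σ) = dT h l := rfl

theorem uB_mul (t t' : Tp σ) : uB h t * uB h t' = uB h (tmul h t t') := Subtype.ext (uT_mul h t t')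

theorem dB_uB (l : Fˣ) (t : Tp σ) : dB h l * uB h t * (dB h l)⁻¹ = uB h (tact h l t) :=
  Subtype.ext (dT_uT h l t)

theorem muF_inv (l : Fˣ) : muF σ l⁻¹ = (muF σ l)⁻¹ := by
  simp [muF, div_eq_mul_inv, mul_comm]

theorem nuF_inv (l : Fˣ) : nuF σ l⁻¹ = (nuF σ l)⁻¹ := by simp [nuF, mul_comm]

theorem muF_norm (l : Fˣ) : muF σ l * σ (muF σ l) = nuF σ l := by
  have h0 : (l : F) ≠ 0 := l.ne_zero
  have h1 : σ (l : F) ≠ 0 := by simp
  simp only [muF, nuF, map_div₀, map_pow, h.conj_conj]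
  field_simp

theorem muF_ne (l : Fˣ) : muF σ l ≠ 0 := by simp [muF]

theorem nuF_ne (l : Fˣ) : nuF σ l ≠ 0 := by simp [nuF]

theorem tact_tact_inv (l : Fˣ) (t : Tp σ) : tact h l (tact h l⁻¹ t) = t := by
  refine tp_ext ?_ ?_
  · show muF σ l * (muF σ l⁻¹ * t.1.1) = t.1.1
    rw [muF_inv h, mul_inv_cancel_left₀ (muF_ne h l)]
  · show nuF σ l * (nuF σ l⁻¹ * t.1.2) = t.1.2
    rw [nuF_inv h, mul_inv_cancel_left₀ (nuF_ne h l)]

omit h

/-- The section of a non-skew element. -/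
def rsec (σ : F →+* F) (x : F) : F := -x / (x + σ x)

include h

theorem rsec_spec {x : F} (hx : x + σ x ≠ 0) : rsec σ x + σ (rsec σ x) = -1 := by
  simp only [rsec, map_div₀, map_neg, map_add, h.conj_conj, add_comm (σ x) x]
  field_simp
  ring

theorem rsec_self {r : F} (hr : r + σ r = -1) : rsec σ r = r := by rw [rsec, hr, neg_div_neg_eq, div_one]

theorem rsec_smul {x c : F} (hc0 : c ≠ 0) (hc : σ c = c) : rsec σ (x * c) = rsec σ x := by
  rw [rsec, rsec, map_mul, hc, ← add_mul, ← neg_mul, mul_div_mul_right _ _ hc0]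

theorem rsec_mul {δ a y : F} (hδ : σ δ = -δ) (hδ0 : δ ≠ 0) (ha : a + σ a ≠ 0) (hy : y + σ y ≠ 0)
    (hY : a * y * δ + σ (a * y * δ) ≠ 0) :
    rsec σ (a * y * δ) * (1 + rsec σ y + rsec σ a) = rsec σ a * rsec σ y := by
  rw [map_mul, map_mul, hδ] at hY
  have hd : a * y - σ a * σ y ≠ 0 := fun e => hY (by linear_combination δ * e)
  simp only [rsec, map_mul, hδ]
  rw [show a * y * δ + σ a * σ y * -δ = (a * y - σ a * σ y) * δ by ring]
  field_simp
  ring

variable {G : Type*} [Group G] (φ : Bor σ →* G) (wG : G)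

/-- The big cell of the group. -/
def Cell : Set G := {x | ∃ (b : Bor σ) (t : Tp σ), x = φ b * wG * φ (uB h t)}

/-- The Bruhat relation at a parameter holds. -/
def Good (t : Tp σ) : Prop := wG * φ (uB h t) * wG ∈ Cell h φ wG

variable {φ wG}

theorem cell_left {x : G} (hx : x ∈ Cell h φ wG) (b : Bor σ) : φ b * x ∈ Cell h φ wG := by
  obtain ⟨b', t, rfl⟩ := hx
  exact ⟨b * b', t, by rw [map_mul]; group⟩

variable (hw2 : wG * wG = 1) (hwd : ∀ l : Fˣ, wG * φ (dB h l) * wG = φ (dB h (sU σ l)⁻¹))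

include hw2 hwd

theorem w_dB (l : Fˣ) : wG * φ (dB h l) = φ (dB h (sU σ l)⁻¹) * wG := by
  rw [← hwd, mul_assoc (wG * φ (dB h l)), hw2, mul_one]

theorem dB_w (l : Fˣ) : φ (dB h l) * wG = wG * φ (dB h (sU σ l)⁻¹) := by
  rw [← hwd, ← mul_assoc, ← mul_assoc, hw2, one_mul]

theorem cell_right {x : G} (hx : x ∈ Cell h φ wG) (b : Bor σ) : x * φ b ∈ Cell h φ wG := by
  obtain ⟨b', t, rfl⟩ := hx
  obtain ⟨t', l, e⟩ := exists_ud h (uB h t * b).2
  have e' : uB h t * b = dB h l * uB h (tact h l⁻¹ t') := by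
    rw [← dB_uB, map_inv, inv_inv]
    refine Subtype.ext ?_
    rw [e]
    simp only [Subgroup.coe_mul, InvMemClass.coe_inv, coe_dB, coe_uB]
    group
  refine ⟨b' * dB h (sU σ l)⁻¹, tact h l⁻¹ t', ?_⟩
  calc φ b' * wG * φ (uB h t) * φ b = φ b' * (wG * φ (dB h l)) * φ (uB h (tact h l⁻¹ t')) := by
        rw [mul_assoc (φ b' * wG), ← map_mul, e', map_mul]; group
    _ = _ := by rw [w_dB h hw2 hwd, map_mul]; group

theorem good_tact {t : Tp σ} (ht : Good h φ wG t) (l : Fˣ) : Good h φ wG (tact h l t) := by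
  have := cell_right h hw2 hwd (cell_left h ht (dB h (sU σ l)⁻¹)) (dB h (sU σ l)⁻¹)⁻¹
  unfold Good
  convert this using 1
  rw [← dB_uB, map_mul, map_mul, map_inv φ (dB h l), map_inv φ (dB h (sU σ l)⁻¹), ← hwd, _root_.mul_inv_rev, _root_.mul_inv_rev,
    inv_eq_of_mul_eq_one_right hw2]
  calc wG * (φ (dB h l) * φ (uB h t) * (φ (dB h l))⁻¹) * wG
      = wG * φ (dB h l) * 1 * φ (uB h t) * 1 * (φ (dB h l))⁻¹ * wG := by group
    _ = wG * φ (dB h l) * (wG * wG) * φ (uB h t) * (wG * wG) * (φ (dB h l))⁻¹ * wG := by rw [hw2]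
    _ = _ := by group

variable {π : G →* suAnti σ} (hφ : ∀ b, π (φ b) = b) (hw : π wG = wEl₃ σ)

include hφ hw

theorem good_eq {t : Tp σ} (hc : t.1.2 ≠ 0) (ht : Good h φ wG t) :
    wG * φ (uB h t) * wG = φ (uB h (tal h t) * dB h (sU σ (Units.mk0 t.1.2 hc))⁻¹) * wG *
      φ (uB h (tbe h t)) := by
  obtain ⟨b, t', e⟩ := ht
  have e' := congrArg π e
  simp only [map_mul, hφ, hw, coe_uB] at e'
  rw [w_uT_w h t hc] at e'
  obtain ⟨e1, e2⟩ := cell_inj h (mul_mem (uT_mem_Bor h _) (dT_mem_Bor h _)) b.2 e'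
  rw [e, show uB h (tal h t) * dB h (sU σ (Units.mk0 t.1.2 hc))⁻¹ = b from Subtype.ext e1, e2]

theorem good_tmul {t₁ t₂ : Tp σ} (hc₁ : t₁.1.2 ≠ 0) (hc₂ : t₂.1.2 ≠ 0) (h₁ : Good h φ wG t₁)
    (h₂ : Good h φ wG t₂) (hs : Good h φ wG (tmul h (tbe h t₁) (tal h t₂))) :
    Good h φ wG (tmul h t₁ t₂) := by
  set b₁ := uB h (tal h t₁) * dB h (sU σ (Units.mk0 t₁.1.2 hc₁))⁻¹
  set l₂ := (sU σ (Units.mk0 t₂.1.2 hc₂))⁻¹
  have key : wG * φ (uB h (tmul h t₁ t₂)) * wG = φ b₁ * (wG * φ (uB h (tmul h (tbe h t₁) (tal h t₂))) *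
      wG) * φ (dB h (sU σ l₂)⁻¹ * uB h (tbe h t₂)) := by
    calc wG * φ (uB h (tmul h t₁ t₂)) * wG
        = wG * φ (uB h t₁) * (wG * wG) * φ (uB h t₂) * wG := by rw [hw2, ← uB_mul, map_mul]; group
      _ = (wG * φ (uB h t₁) * wG) * (wG * φ (uB h t₂) * wG) := by group
      _ = φ b₁ * wG * φ (uB h (tbe h t₁)) * (φ (uB h (tal h t₂) * dB h l₂) * wG *
            φ (uB h (tbe h t₂))) := by rw [good_eq h hw2 hwd hφ hw hc₁ h₁, good_eq h hw2 hwd hφ hw hc₂ h₂]
      _ = φ b₁ * wG * (φ (uB h (tbe h t₁)) * φ (uB h (tal h t₂))) * (φ (dB h l₂) * wG) *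
            φ (uB h (tbe h t₂)) := by rw [map_mul φ (uB h (tal h t₂))]; group
      _ = _ := by rw [dB_w h hw2 hwd, ← map_mul φ (uB h (tbe h t₁)), uB_mul, map_mul φ (dB h (sU σ l₂)⁻¹)]; group
  unfold Good
  rw [key]
  exact cell_right h hw2 hwd (cell_left h hs b₁) _

variable {ω : Fˣ} (hω : orderOf ω = q ^ 2 - 1) {δ : F} {hδ : σ δ = -δ} (hδ0 : δ ≠ 0)

include hω hδ0

theorem good_all (hT : (ω : F) / δ + σ ((ω : F) / δ) ≠ 0) (hz : Good h φ wG (zP δ hδ))
    (S : Fin 3 → Tp σ) (hS1 : ∀ i, (S i).1.1 = (ω : F) ^ (i : ℕ))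
    (hS2 : ∀ i, (S i).1.2 = rsec σ ((ω : F) / δ) * ((S i).1.1 * σ (S i).1.1))
    (hS : ∀ i, Good h φ wG (S i)) : ∀ t : Tp σ, t.1.2 ≠ 0 → Good h φ wG t := by
  set x₀ := (ω : F) / δ with hx₀
  set r₀ := rsec σ x₀ with hr₀
  have hz' : ∀ t : Tp σ, t.1.1 = 0 → t.1.2 ≠ 0 → Good h φ wG t := by
    intro t ht hc
    have hsk : σ t.1.2 = -t.1.2 := by
      have := t.2
      rw [ht, zero_mul, add_zero] at this
      linear_combination this
    obtain ⟨l, hl⟩ := h.exists_norm (a := t.1.2 / δ) (by rw [map_div₀, hsk, hδ, neg_div_neg_eq])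
    have hl0 : l ≠ 0 := fun e => div_ne_zero hc hδ0 (by rw [← hl, e, zero_mul])
    rw [show t = tact h (Units.mk0 l hl0) (zP δ hδ) from tp_ext (by show t.1.1 = muF σ _ * (0 : F); rw [ht, mul_zero])
      (by show t.1.2 = nuF σ _ * δ; rw [nuF, Units.val_mk0, hl, div_mul_cancel₀ _ hδ0])]
    exact good_tact h hw2 hwd hz _
  have hseed : ∀ t : Tp σ, t.1.1 ≠ 0 → t.1.2 = r₀ * (t.1.1 * σ t.1.1) → Good h φ wG t := by
    intro t hb hc
    obtain ⟨k, hk⟩ := exists_pow_omega h hω (Units.mk0 _ hb)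
    set l := ω ^ (k / 3) * sU σ (ω ^ (k / 3)) ^ 2
    have hμ : muF σ l = (ω : F) ^ (3 * (k / 3)) := by
      rw [muF_cube h, Units.val_pow_eq_pow_val, ← pow_mul, mul_comm]
    have hb' : t.1.1 = muF σ l * (ω : F) ^ (k % 3) := by
      rw [hμ, ← pow_add, Nat.div_add_mod, ← Units.val_pow_eq_pow_val, hk, Units.val_mk0]
    rw [show t = tact h l (S ⟨k % 3, Nat.mod_lt _ (by norm_num)⟩) from tp_ext
      (by show t.1.1 = muF σ l * _; rw [hS1, hb'])
      (by show t.1.2 = nuF σ l * _; rw [hS2, hS1, hc, hb', map_mul, ← muF_norm h]; ring)]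
    exact good_tact h hw2 hwd (hS _) _
  have main : ∀ (m : ℕ) (t : Tp σ), t.1.1 ≠ 0 → (ω : F) ^ m / δ + σ ((ω : F) ^ m / δ) ≠ 0 →
      t.1.2 = rsec σ ((ω : F) ^ m / δ) * (t.1.1 * σ t.1.1) → Good h φ wG t := by
    intro m
    induction m with
    | zero =>
      intro t _ hT0 _
      exact absurd (by rw [pow_zero, map_div₀, map_one, hδ, div_neg, add_neg_cancel]) hT0
    | succ m ih =>
      intro t hb hT1 hc
      set y := (ω : F) ^ m / δ with hy
      have hy1 : (ω : F) ^ (m + 1) / δ = x₀ * y * δ := by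
        rw [hx₀, hy, pow_succ]; field_simp
      rw [hy1] at hT1 hc
      by_cases hTy : y + σ y = 0
      · refine hseed t hb ?_
        have hcfix : σ (y * δ) = y * δ := by
          rw [map_mul, hδ]
          linear_combination (-δ) * hTy
        rw [hc, mul_assoc, rsec_smul h (mul_ne_zero (by simp [hy, hδ0]) hδ0) hcfix, hr₀]
      set R₁ := rsec σ (x₀ * y * δ)
      set R₂ := rsec σ y
      have hR₁ := rsec_spec h hT1
      have hR₂ := rsec_spec h hTy
      have hN : t.1.1 * σ t.1.1 ≠ 0 := mul_ne_zero hb (by simp [hb])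
      have hR₂0 : R₂ ≠ 0 := fun e => by simp [show rsec σ y = 0 from e] at hR₂
      let t₂ : Tp σ := ⟨(t.1.1, R₂ * (t.1.1 * σ t.1.1)), by
        simp only [map_mul, h.conj_conj]
        linear_combination (t.1.1 * σ t.1.1) * hR₂⟩
      have ht₂ : Good h φ wG t₂ := ih t₂ hb hTy rfl
      by_cases hR : R₁ = R₂
      · rw [show t = t₂ from tp_ext rfl (by rw [hc]; exact congrArg (· * _) hR)]
        exact ht₂
      let z : Tp σ := ⟨(0, (R₁ - R₂) * (t.1.1 * σ t.1.1)), by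
        simp only [map_mul, map_sub, map_zero, h.conj_conj]
        linear_combination (t.1.1 * σ t.1.1) * hR₁ - (t.1.1 * σ t.1.1) * hR₂⟩
      have hzc : z.1.2 ≠ 0 := mul_ne_zero (sub_ne_zero.2 hR) hN
      have hc₂ : t₂.1.2 ≠ 0 := mul_ne_zero hR₂0 hN
      have et : tmul h z t₂ = t := by
        refine tp_ext ?_ ?_
        · show 0 + t.1.1 = t.1.1
          rw [zero_add]
        · show (R₁ - R₂) * (t.1.1 * σ t.1.1) + R₂ * (t.1.1 * σ t.1.1) - σ 0 * t.1.1 = t.1.2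
          rw [hc, map_zero]; ring
      rw [← et]
      refine good_tmul h hw2 hwd hφ hw hzc hc₂ (hz' z rfl hzc) ht₂ ?_
      obtain ⟨e1, e2⟩ := tbe_tal h z t₂ hzc hc₂
      rw [et] at e2
      set s := tmul h (tbe h z) (tal h t₂)
      have e1' : s.1.1 = -t.1.1 / (R₂ * (t.1.1 * σ t.1.1)) := by
        rw [e1]; show -0 / _ + -t.1.1 / _ = _; rw [neg_zero, zero_div, zero_add]
      have e2' : s.1.2 = R₁ * (t.1.1 * σ t.1.1) /
          ((R₁ - R₂) * (t.1.1 * σ t.1.1) * (R₂ * (t.1.1 * σ t.1.1))) := by rw [e2, hc]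
      refine hseed s (by rw [e1']; exact div_ne_zero (neg_ne_zero.2 hb) hc₂) ?_
      have key := rsec_mul h hδ hδ0 hT hTy hT1
      have hσb : σ t.1.1 ≠ 0 := by simp [hb]
      have hσR : σ R₂ = -1 - R₂ := by linear_combination hR₂
      have hσR0 : -1 - R₂ ≠ 0 := by rw [← hσR]; simpa using hR₂0
      have hd : R₁ - R₂ ≠ 0 := sub_ne_zero.2 hR
      rw [e1', e2', map_div₀, map_neg, map_mul, map_mul, h.conj_conj, hσR]
      field_simp
      linear_combination -key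
  intro t hc
  by_cases hb : t.1.1 = 0
  · exact hz' t hb hc
  set r := t.1.2 / (t.1.1 * σ t.1.1) with hr
  have hσb : σ t.1.1 ≠ 0 := by simp [hb]
  have hrT : r + σ r = -1 := by
    have := t.2
    simp only [hr, map_div₀, map_mul, h.conj_conj]
    field_simp
    linear_combination this
  have hr0 : r ≠ 0 := div_ne_zero hc (mul_ne_zero hb hσb)
  obtain ⟨m, hm⟩ := exists_pow_omega h hω (Units.mk0 (r * δ) (mul_ne_zero hr0 hδ0))
  have hmr : (ω : F) ^ m / δ = r := by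
    rw [← Units.val_pow_eq_pow_val, hm, Units.val_mk0, mul_div_cancel_right₀ _ hδ0]
  refine main m t hb (by rw [hmr, hrT]; exact neg_ne_zero.2 one_ne_zero) ?_
  rw [hmr, rsec_self h hrT, hr, div_mul_cancel₀ _ (mul_ne_zero hb hσb)]

omit hω hδ0

/-- When all Bruhat relations hold, the group is the model. -/
theorem injective_of_good (hgood : ∀ t : Tp σ, t.1.2 ≠ 0 → Good h φ wG t)
    (hgen : Subgroup.closure ((φ.range : Set G) ∪ {wG}) = ⊤) : Function.Injective π := by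
  set C : Set G := (φ.range : Set G) ∪ Cell h φ wG
  have hone : φ 1 = 1 := map_one φ
  have hz0 : (uB h ⟨(0, 0), by simp⟩ : Bor σ) = 1 := by
    refine Subtype.ext ?_
    apply mat₃_injective σ
    rw [coe_uB, mat_uT, OneMemClass.coe_one, map_one]
    ext i j
    fin_cases i <;> fin_cases j <;> simp [uMat₃]
  have hb : ∀ x ∈ C, ∀ b, x * φ b ∈ C := by
    rintro x (⟨b', rfl⟩ | hx) b
    · exact Or.inl ⟨b' * b, map_mul φ b' b⟩
    · exact Or.inr (cell_right h hw2 hwd hx b)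
  have hwmul : ∀ x ∈ C, x * wG ∈ C := by
    rintro x (⟨b, rfl⟩ | ⟨b, t, rfl⟩)
    · exact Or.inr ⟨b, ⟨(0, 0), by simp⟩, by rw [hz0, hone, mul_one]⟩
    · by_cases ht : t.1 = 0
      · have e : uB h t = 1 := by
          rw [← hz0]
          exact congrArg (uB h) (tp_ext (by rw [ht]; rfl) (by rw [ht]; rfl))
        exact Or.inl ⟨b, by rw [e, hone, mul_one, mul_assoc, hw2, mul_one]⟩
      · have hc := tp_snd_ne h t ht
        exact Or.inr (by
          rw [show φ b * wG * φ (uB h t) * wG = φ b * (wG * φ (uB h t) * wG) by group]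
          exact cell_left h (hgood t hc) b)
  have hall : ∀ x : G, x ∈ C := by
    intro x
    have hx : x ∈ Subgroup.closure ((φ.range : Set G) ∪ {wG}) := hgen ▸ Subgroup.mem_top x
    induction hx using Subgroup.closure_induction_right with
    | one => exact Or.inl ⟨1, hone⟩
    | mul_right a _ b hb' ia =>
      rcases hb' with ⟨b', rfl⟩ | hb'
      · exact hb a ia b'
      · rw [Set.mem_singleton_iff.1 hb']; exact hwmul a ia
    | mul_inv_cancel a _ b hb' ia =>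
      rcases hb' with ⟨b', rfl⟩ | hb'
      · rw [← map_inv]; exact hb a ia _
      · rw [Set.mem_singleton_iff.1 hb', inv_eq_of_mul_eq_one_right hw2]; exact hwmul a ia
  refine (injective_iff_map_eq_one π).2 fun x hx => ?_
  rcases hall x with ⟨b, rfl⟩ | ⟨b, t, rfl⟩
  · rw [show b = 1 from Subtype.ext (by rw [← hφ b, hx]; rfl), hone]
  · simp only [map_mul, hφ, hw, coe_uB] at hx
    exact absurd (hx ▸ one_mem _) (cell_mat_ne h b.2 t)

end CfsgLib.SU3Pres
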