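/-
Identities in the upper triangular subgroup of `SU₃`, used as relators.
-/
import Cfsg.Agent.Lib.SU3Pres.Borel
import Cfsg.Agent.Lib.SU3Pres.Closure

set_option autoImplicit false
set_option linter.unusedSectionVars false

open Matrix Polynomial
open scoped commutatorElement
open CfsgLib.Amalgams CfsgLib.SL2Pres

namespace CfsgLib.SU3Pres

variable {F : Type*} [Field F] [Finite F] {σ : F →+* F} {q : ℕ} (h : UniField F σ q)
  {p : ℕ} [Fact p.Prime] [Algebra (ZMod p) F]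

/-- The image modulo the long root group, in units. -/
noncomputable def rhoU (σ : F →+* F) : Bor σ →* (Matrix (Fin 2) (Fin 2) F)ˣ := (rhoB σ).toHomUnits

include h

theorem coe_rhoU (x : Bor σ) :
    ((rhoU σ x : (Matrix (Fin 2) (Fin 2) F)ˣ) : Matrix (Fin 2) (Fin 2) F) = blk (mat₃ σ x.1) := rfl

theorem rhoU_uB {t t' : Tp σ} (e : t.1.1 = t'.1.1) : rhoU σ (uB h t) = rhoU σ (uB h t') := by
  refine Units.ext ?_
  rw [coe_rhoU h, coe_rhoU h, coe_uB, coe_uB, mat_uT, mat_uT]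
  ext i j
  fin_cases i <;> fin_cases j <;> simp [blk, uMat₃, e]

theorem exists_of_rhoU_eq_one {x : Bor σ} (hx : rhoU σ x = 1) : ∃ t : Tp σ, t.1.1 = 0 ∧ x = uB h t := by
  obtain ⟨t, l, e⟩ := exists_ud h x.2
  have e' := congrArg Units.val hx
  rw [coe_rhoU h, e, map_mul, mat_uT, mat_dT, Units.val_one] at e'
  have e11 := congrFun (congrFun e' 1) 1
  have e01 := congrFun (congrFun e' 0) 1
  simp [blk, uMat₃, dMat₃, Matrix.mul_apply, Fin.sum_univ_three] at e11 e01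
  have hl : l = 1 := Units.ext (σ.injective (by rw [Units.val_one, map_one]; exact e11))
  refine ⟨t, e01, Subtype.ext ?_⟩
  rw [e, hl, map_one, mul_one, coe_uB]

theorem exists_tp (b : F) : ∃ t : Tp σ, t.1.1 = b := by
  obtain ⟨c, hc⟩ := h.exists_trace (a := -(b * σ b)) (by rw [map_neg, map_mul, h.conj_conj, mul_comm])
  exact ⟨⟨(b, c), by linear_combination hc⟩, rfl⟩

theorem exists_isUnip_rho {ω : Fˣ} {t₀ : Tp σ} (ht₀ : t₀.1.1 = 1) : ∃ X : F → (Matrix (Fin 2) (Fin 2) F)ˣ,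
    IsUnip (rhoU σ (uB h t₀)) (rhoU σ (dB h ω)) (muF σ ω) X := by
  choose T hT using exists_tp h
  refine ⟨fun b => rhoU σ (uB h (T b)), fun s t => ?_, rhoU_uB h (by rw [hT, ht₀]), fun t => ?_⟩
  · show rhoU σ _ = rhoU σ _ * rhoU σ _
    rw [← map_mul, uB_mul]
    exact rhoU_uB h (by show (T (s + t)).1.1 = (T s).1.1 + (T t).1.1; rw [hT, hT, hT])
  · show rhoU σ _ * rhoU σ _ * _ = rhoU σ _
    rw [← map_inv, ← map_mul, ← map_mul, dB_uB]
    exact rhoU_uB h (by show muF σ ω * (T t).1.1 = (T _).1.1; rw [hT, hT])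

theorem exists_isUnip_zB {ω : Fˣ} {δ : F} (hδ : σ δ = -δ) : ∃ X : F → Bor σ,
    IsUnip (uB h (zP δ hδ)) (dB h ω) (nuF σ ω) X ∧
    ∀ t : Tp σ, t.1.1 = 0 → ∀ x, σ x = x → t.1.2 = δ * x → X x = uB h t := by
  obtain ⟨e, he⟩ := h.exists_trace (a := (1 : F)) (map_one σ)
  set L : F → F := fun x => x * e + σ (x * e) with hL
  have hfix : ∀ x, σ (L x) = L x := fun x => by rw [hL]; simp only [map_add, h.conj_conj]; rw [add_comm]
  have hLx : ∀ x, σ x = x → L x = x := fun x hx => by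
    simp only [hL, map_mul, hx]; linear_combination x * he
  have hsk : ∀ x, σ (δ * L x) = -(δ * L x) := fun x => by rw [map_mul, hδ, hfix, neg_mul]
  refine ⟨fun x => uB h (zP _ (hsk x)), ⟨fun s t => ?_, ?_, fun t => ?_⟩, fun t ht x hx hc => ?_⟩
  · show uB h _ = uB h _ * uB h _
    rw [uB_mul]
    refine congrArg (uB h) (tp_ext ?_ ?_)
    · show (0 : F) = 0 + 0
      rw [add_zero]
    · show δ * L (s + t) = δ * L s + δ * L t - σ (0 : F) * 0
      simp only [hL, add_mul, map_add]; ring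
  · refine congrArg (uB h) (tp_ext rfl ?_)
    show δ * L 1 = δ
    rw [hLx 1 (map_one σ), mul_one]
  · show dB h ω * uB h _ * _ = uB h _
    rw [dB_uB]
    refine congrArg (uB h) (tp_ext ?_ ?_)
    · show muF σ ω * (0 : F) = 0
      rw [mul_zero]
    · show nuF σ ω * (δ * L t) = δ * L (nuF σ ω * t)
      simp only [hL, mul_assoc, map_mul σ (nuF σ ω), nuF_fixed h]; ring
  · refine congrArg (uB h) (tp_ext ht.symm ?_)
    show δ * L x = t.1.2
    rw [hLx x hx, hc]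

theorem commute_cen {t : Tp σ} (ht : t.1.1 = 0) (t' : Tp σ) : Commute (uB h t) (uB h t') := by
  show uB h t * uB h t' = uB h t' * uB h t
  rw [uB_mul, uB_mul]
  refine congrArg (uB h) (tp_ext ?_ ?_)
  · show t.1.1 + t'.1.1 = t'.1.1 + t.1.1
    rw [add_comm]
  · show t.1.2 + t'.1.2 - σ t.1.1 * t'.1.1 = t'.1.2 + t.1.2 - σ t'.1.1 * t.1.1
    rw [ht, map_zero]; ring

theorem dB_uB_pow (ω : Fˣ) (t : Tp σ) (k : ℕ) :
    cj (dB h ω) k (uB h t) = uB h (tact h (ω ^ k) t) := by rw [cj, ← map_pow, dB_uB]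

variable {ω : Fˣ} (hω : orderOf ω = q ^ 2 - 1) {t₀ : Tp σ} (ht₀ : t₀.1.1 = 1) {δ : F} (hδ : σ δ = -δ)
  (hδ0 : δ ≠ 0)

include hω hδ0

theorem exists_pval_cen {x : Bor σ} (hx : rhoU σ x = 1) :
    ∃ P : (ZMod p)[X], pval (uB h (zP δ hδ)) (dB h ω) 1 P = x := by
  obtain ⟨t, ht, rfl⟩ := exists_of_rhoU_eq_one h hx
  obtain ⟨X, hX, hXc⟩ := exists_isUnip_zB h (ω := ω) hδ
  have hsk : σ t.1.2 = -t.1.2 := by
    have := t.2
    rw [ht, zero_mul, add_zero] at this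
    linear_combination this
  have hfix : σ (t.1.2 / δ) = t.1.2 / δ := by rw [map_div₀, hsk, hδ, neg_div_neg_eq]
  obtain ⟨P, hP⟩ := exists_aeval_nu (p := p) h hω hfix
  refine ⟨P, ?_⟩
  rw [hX.pval_eq, pow_one, hP]
  exact hXc t ht _ hfix (mul_div_cancel₀ _ hδ0).symm

include ht₀

/-- The long root group is generated from the two generators. -/
theorem zP_mem (hq : 4 ≤ q) (H : Subgroup (suAnti σ)) (hu : uT h t₀ ∈ H) (hd : dT h ω ∈ H) :
    uT h (zP δ hδ) ∈ H := by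
  have hdall : ∀ l, dT h l ∈ H := fun l => by
    obtain ⟨k, rfl⟩ := exists_pow_omega h hω l
    rw [map_pow]; exact pow_mem hd k
  have hact : ∀ (l : Fˣ) t, uT h t ∈ H → uT h (tact h l t) ∈ H := fun l t ht => by
    rw [← dT_uT]; exact mul_mem (mul_mem (hdall l) ht) (inv_mem (hdall l))
  set t₁ := tact h ω t₀
  set t := tmul h (tmul h t₀ t₁) (tinv h (tmul h t₁ t₀)) with htdef
  have ht : uT h t ∈ H := by
    rw [htdef, ← uT_mul, uT_tinv, ← uT_mul, ← uT_mul]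
    exact mul_mem (mul_mem hu (hact _ _ hu)) (inv_mem (mul_mem (hact _ _ hu) hu))
  have hb : t.1.1 = 0 := by
    show t₀.1.1 + t₁.1.1 + -(t₁.1.1 + t₀.1.1) = 0
    ring
  have h0 := t₀.2
  have h1 := t₁.2
  have hb₁ : t₁.1.1 = muF σ ω := by show muF σ ω * t₀.1.1 = _; rw [ht₀, mul_one]
  have hc : t.1.2 = σ (muF σ ω) - muF σ ω := by
    show t₀.1.2 + t₁.1.2 - σ t₀.1.1 * t₁.1.1 + σ (t₁.1.2 + t₀.1.2 - σ t₁.1.1 * t₀.1.1) -
      σ (t₀.1.1 + t₁.1.1) * -(t₁.1.1 + t₀.1.1) = _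
    rw [ht₀, map_one, one_mul] at h0
    rw [hb₁] at h1
    rw [ht₀, hb₁]
    simp only [map_add, map_sub, map_mul, map_one, h.conj_conj]
    linear_combination h0 + h1
  have hne : t.1.2 ≠ 0 := by
    rw [hc, sub_ne_zero]
    intro e
    refine not_fixed_omega_pow h hω (m := 3) (by norm_num) (by omega) ?_
    have h2 : σ (ω : F) ≠ 0 := by simp
    have h3 : (ω : F) ≠ 0 := ω.ne_zero
    simp only [muF, map_div₀, map_pow, h.conj_conj] at e
    rw [div_eq_div_iff h2 h3] at e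
    rw [map_pow]
    linear_combination -e
  have hsk : σ t.1.2 = -t.1.2 := by rw [hc, map_sub, h.conj_conj, neg_sub]
  obtain ⟨l, hl⟩ := h.exists_norm (a := δ / t.1.2) (by rw [map_div₀, hsk, hδ, neg_div_neg_eq])
  have hl0 : l ≠ 0 := fun e => div_ne_zero hδ0 hne (by rw [← hl, e, zero_mul])
  have e : tact h (Units.mk0 l hl0) t = zP δ hδ :=
    tp_ext (by show muF σ _ * t.1.1 = 0; rw [hb, mul_zero])
      (by show nuF σ _ * t.1.2 = δ; rw [nuF, Units.val_mk0, hl, div_mul_cancel₀ _ hne])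
  rw [← e]; exact hact _ _ ht

end CfsgLib.SU3Pres
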