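/-
A presentation of `SU₃(q)` and `PSU₃(q)` with three generators and few relations.
-/
import Cfsg.Agent.Lib.SU3Pres.Words
import Cfsg.Agent.Lib.SL2Pres.Rels
import Cfsg.Agent.Lib.Sp4Pres.Main

set_option autoImplicit false
set_option linter.unusedSectionVars false

open Matrix Polynomial
open scoped commutatorElement
open CfsgLib.Amalgams CfsgLib.SL2Pres

namespace CfsgLib.SU3Pres

variable {F : Type*} [Field F] [Finite F] {σ : F →+* F} {q : ℕ} (h : UniField F σ q)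
  {p : ℕ} [Fact p.Prime] [Algebra (ZMod p) F]

local notation "gU" => (FreeGroup.of (0 : Fin 3) : FreeGroup (Fin 3))
local notation "gH" => (FreeGroup.of (1 : Fin 3) : FreeGroup (Fin 3))
local notation "gW" => (FreeGroup.of (2 : Fin 3) : FreeGroup (Fin 3))

/-- The three generators. -/
noncomputable def tau (t₀ : Tp σ) (ω : Fˣ) : FreeGroup (Fin 3) →* suAnti σ :=
  FreeGroup.lift ![uT h t₀, dT h ω, wEl₃ σ]

include h

theorem hwd_of_gen {G : Type*} [Group G] (φ : Bor σ →* G) {wG : G} (hw2 : wG * wG = 1) {ω : Fˣ}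
    (hω : orderOf ω = q ^ 2 - 1) (hwd : wG * φ (dB h ω) * wG = φ (dB h (sU σ ω)⁻¹)) (l : Fˣ) :
    wG * φ (dB h l) * wG = φ (dB h (sU σ l)⁻¹) := by
  obtain ⟨k, rfl⟩ := exists_pow_omega h hω l
  have hi : wG⁻¹ = wG := inv_eq_of_mul_eq_one_right hw2
  have : wG * φ (dB h ω) ^ k * wG⁻¹ = (wG * φ (dB h ω) * wG⁻¹) ^ k := conj_pow.symm
  rw [hi, hwd, ← map_pow, ← map_pow, ← map_pow, ← map_pow, inv_pow, ← map_pow] at this
  exact this

/-- The model is generated by the three elements. -/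
theorem tau_surjective {ω : Fˣ} (hω : orderOf ω = q ^ 2 - 1) (hq : 4 ≤ q) {t₀ : Tp σ} (ht₀ : t₀.1.1 = 1) :
    Function.Surjective (tau h t₀ ω) := by
  rw [← MonoidHom.range_eq_top, eq_top_iff]
  obtain ⟨δ, hδ0, hδ⟩ := h.exists_skew
  have hu : uT h t₀ ∈ (tau h t₀ ω).range := ⟨gU, by simp [tau]⟩
  have hd : dT h ω ∈ (tau h t₀ ω).range := ⟨gH, by simp [tau]⟩
  have hw : wEl₃ σ ∈ (tau h t₀ ω).range := ⟨gW, by simp [tau]⟩
  have hB := bor_le h hω hq _ ht₀ hδ hδ0 hu hd (zP_mem h hω ht₀ hδ hδ0 hq _ hu hd)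
  intro g _
  by_cases hg : g ∈ Bor σ
  · exact hB hg
  · obtain ⟨b, hb, t, rfl⟩ := exists_cell h hg
    exact mul_mem (mul_mem (hB hb) hw) (hB (uT_mem_Bor h t))

theorem tau_U (t₀ : Tp σ) (ω : Fˣ) : tau h t₀ ω gU = (uB h t₀ : suAnti σ) := by simp [tau, coe_uB]

theorem tau_H (t₀ : Tp σ) (ω : Fˣ) : tau h t₀ ω gH = (dB h ω : suAnti σ) := by simp [tau, coe_dB]

theorem tau_W (t₀ : Tp σ) (ω : Fˣ) : tau h t₀ ω gW = wEl₃ σ := by simp [tau]

theorem tau_cj {t₀ : Tp σ} {ω : Fˣ} (k : ℕ) (x : FreeGroup (Fin 3)) (xb : Bor σ)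
    (e : tau h t₀ ω x = (xb : suAnti σ)) :
    tau h t₀ ω (cj gH k x) = ((cj (dB h ω) k xb : Bor σ) : suAnti σ) := by
  simp only [cj, map_mul, map_pow, map_inv, e, tau_H]; rfl

theorem tau_pval {p : ℕ} {t₀ : Tp σ} {ω : Fˣ} (i : ℕ) (P : (ZMod p)[X]) (x : FreeGroup (Fin 3))
    (xb : Bor σ) (e : tau h t₀ ω x = (xb : suAnti σ)) :
    tau h t₀ ω (pval x gH i P) = ((pval xb (dB h ω) i P : Bor σ) : suAnti σ) := by
  rw [map_pval, e, tau_H, ← Subgroup.subtype_apply xb, ← Subgroup.subtype_apply (dB h ω),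
    ← map_pval (Bor σ).subtype]
  rfl

/-- Relators that make the short root group commutative modulo the long one. -/
theorem exists_cert (p : ℕ) [Fact p.Prime] [Algebra (ZMod p) F] {ω : Fˣ} (hω : orderOf ω = q ^ 2 - 1)
    (hq : 4 ≤ q) (hq5 : q ≠ 5) {t₀ : Tp σ} (ht₀ : t₀.1.1 = 1) {δ : F} (hδ : σ δ = -δ) (hδ0 : δ ≠ 0)
    (zw : FreeGroup (Fin 3)) (τZ : tau h t₀ ω zw = (uB h (zP δ hδ) : suAnti σ)) :
    ∃ L : List (FreeGroup (Fin 3)), L.length ≤ 6 ∧ (∀ r ∈ L, tau h t₀ ω r = 1) ∧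
      ∀ (R : Set (FreeGroup (Fin 3))), (∀ r ∈ L, r ∈ R) →
        letI mk := PresentedGroup.mk R
        ((∃ (i j : ℕ) (P : (ZMod p)[X]),
          ⁅mk gU, cj (mk gH) i (mk gU)⁆ ∈ Subgroup.closure (Set.range fun k : ℕ => cj (mk gH) k (mk zw)) ∧
          (cj (mk gH) j (mk gU))⁻¹ * (mk gU * cj (mk gH) i (mk gU)) ∈
            Subgroup.closure (Set.range fun k : ℕ => cj (mk gH) k (mk zw)) ∧
          (mk gH * mk gU * (mk gH)⁻¹)⁻¹ * pval (mk gU) (mk gH) i P ∈
            Subgroup.closure (Set.range fun k : ℕ => cj (mk gH) k (mk zw)) ∧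
          pval (mk gU) (mk gH) 1 (minpoly (ZMod p) (muF σ ω)) ∈
            Subgroup.closure (Set.range fun k : ℕ => cj (mk gH) k (mk zw))) ∨
        ((∀ k, 1 ≤ k → k < (minpoly (ZMod p) (muF σ ω)).natDegree →
            ⁅mk gU, cj (mk gH) k (mk gU)⁆ ∈
              Subgroup.closure (Set.range fun k : ℕ => cj (mk gH) k (mk zw))) ∧
          (cj (mk gH) (minpoly (ZMod p) (muF σ ω)).natDegree (mk gU))⁻¹ *
              pval (mk gU) (mk gH) 1 (X ^ (minpoly (ZMod p) (muF σ ω)).natDegree - minpoly (ZMod p) (muF σ ω)) ∈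
            Subgroup.closure (Set.range fun k : ℕ => cj (mk gH) k (mk zw)))) := by
  haveI : Module.Finite (ZMod p) F := Module.Finite.of_finite
  set τ := tau h t₀ ω with hτdef
  have τU : τ gU = (uB h t₀ : suAnti σ) := tau_U h t₀ ω
  have τH : τ gH = (dB h ω : suAnti σ) := tau_H h t₀ ω
  have τcj := fun k x xb e => tau_cj h (t₀ := t₀) (ω := ω) k x xb e
  have τpv : ∀ (i : ℕ) (P : (ZMod p)[X]) (x : FreeGroup (Fin 3)) (xb : Bor σ), τ x = (xb : suAnti σ) →
      τ (pval x gH i P) = ((pval xb (dB h ω) i P : Bor σ) : suAnti σ) := tau_pval h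
  have hcen : ∀ (x : FreeGroup (Fin 3)) (xb : Bor σ), τ x = (xb : suAnti σ) → rhoU σ xb = 1 →
      ∃ P : (ZMod p)[X], τ (x * (pval zw gH 1 P)⁻¹) = 1 := fun x xb e he => by
    obtain ⟨P, hP⟩ := exists_pval_cen (p := p) h hω hδ hδ0 he
    exact ⟨P, by rw [map_mul, map_inv, τpv 1 P zw _ τZ, hP, e, mul_inv_cancel]⟩
  obtain ⟨X', hX⟩ := exists_isUnip_rho h (ω := ω) ht₀
  set u₀ := uB h t₀ with hu₀
  set d₀ := dB h ω with hd₀
  set g := muF σ ω with hg
  have hρcj : ∀ k, rhoU σ (cj d₀ k u₀) = X' (g ^ k) := fun k => by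
    rw [← hX.pow_conj_one]; simp [cj, map_mul, map_pow, map_inv, hu₀, hd₀]
  have hρu : rhoU σ u₀ = X' 1 := hX.one.symm
  have hρpv : ∀ i (P : (ZMod p)[X]), rhoU σ (pval u₀ d₀ i P) = X' (aeval (g ^ i) P) := fun i P => by
    rw [map_pval, hX.pval_eq]
  have hin : ∀ {R : Set (FreeGroup (Fin 3))} {x : FreeGroup (Fin 3)} {P : (ZMod p)[X]},
      x * (pval zw gH 1 P)⁻¹ ∈ R → PresentedGroup.mk R x ∈ Subgroup.closure
        (Set.range fun k : ℕ => cj (PresentedGroup.mk R gH) k (PresentedGroup.mk R zw)) := by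
    intro R x P hR
    have := PresentedGroup.one_of_mem hR
    rw [map_mul, map_inv, mul_inv_eq_one, map_pval] at this
    rw [this]
    exact pval_mem P _ fun k => Subgroup.subset_closure ⟨1 * k, rfl⟩
  have hmk : ∀ (R : Set (FreeGroup (Fin 3))) k, cj (PresentedGroup.mk R gH) k (PresentedGroup.mk R gU) =
      PresentedGroup.mk R (cj gH k gU) := fun R k => by simp [cj]
  have small : (minpoly (ZMod p) g).natDegree ≤ 6 → ∃ L : List (FreeGroup (Fin 3)), L.length ≤ 6 ∧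
      (∀ r ∈ L, τ r = 1) ∧ ∀ (R : Set (FreeGroup (Fin 3))), (∀ r ∈ L, r ∈ R) →
      letI mk := PresentedGroup.mk R
      (∀ k, 1 ≤ k → k < (minpoly (ZMod p) g).natDegree →
          ⁅mk gU, cj (mk gH) k (mk gU)⁆ ∈
            Subgroup.closure (Set.range fun k : ℕ => cj (mk gH) k (mk zw))) ∧
        (cj (mk gH) (minpoly (ZMod p) g).natDegree (mk gU))⁻¹ *
            pval (mk gU) (mk gH) 1 (X ^ (minpoly (ZMod p) g).natDegree - minpoly (ZMod p) g) ∈
          Subgroup.closure (Set.range fun k : ℕ => cj (mk gH) k (mk zw)) := by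
    intro hN
    set n := (minpoly (ZMod p) g).natDegree with hn
    have hn1 : 0 < n := minpoly.natDegree_pos (IsIntegral.of_finite (ZMod p) g)
    choose Pc hPc using fun k => hcen ⁅gU, cj gH k gU⁆ ⁅u₀, cj d₀ k u₀⁆
      (by rw [map_commutatorElement, τU, τcj _ _ _ τU]; rfl)
      (by rw [map_commutatorElement, hρu, hρcj, commutatorElement_eq_one_iff_commute]; exact hX.comm _ _)
    obtain ⟨Pf, hPf⟩ := hcen ((cj gH n gU)⁻¹ * pval gU gH 1 (X ^ n - minpoly (ZMod p) g))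
      ((cj d₀ n u₀)⁻¹ * pval u₀ d₀ 1 (X ^ n - minpoly (ZMod p) g))
      (by rw [map_mul, map_inv, τcj _ _ _ τU, τpv _ _ _ _ τU]; rfl)
      (by rw [map_mul, map_inv, hρcj, hρpv, pow_one, map_sub, minpoly.aeval, sub_zero, map_pow,
        aeval_X, inv_mul_cancel])
    refine ⟨(cj gH n gU)⁻¹ * pval gU gH 1 (X ^ n - minpoly (ZMod p) g) * (pval zw gH 1 Pf)⁻¹ ::
      (List.range' 1 (n - 1)).map fun k => ⁅gU, cj gH k gU⁆ * (pval zw gH 1 (Pc k))⁻¹, ?_, ?_, ?_⟩
    · simp only [List.length_cons, List.length_map, List.length_range']; omega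
    · intro r hr
      rcases List.mem_cons.1 hr with rfl | hr
      · exact hPf
      · obtain ⟨k, -, rfl⟩ := List.mem_map.1 hr
        exact hPc k
    · intro R hR
      refine ⟨fun k hk hk' => ?_, ?_⟩
      · rw [hmk, ← map_commutatorElement]
        exact hin (hR _ (List.mem_cons_of_mem _ (List.mem_map.2 ⟨k, by
          rw [List.mem_range'_1]; omega, rfl⟩)))
      · rw [hmk, ← map_pval, ← map_inv, ← map_mul]
        exact hin (hR _ List.mem_cons_self)
  by_cases h6 : 6 ≤ q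
  · rcases exists_good_or_small (p := p) h hω h6 with ⟨i, j, hij, hsurj⟩ | hN
    · obtain ⟨P, hP'⟩ := hsurj g
      obtain ⟨Q1, hQ1⟩ := hcen ⁅gU, cj gH i gU⁆ ⁅u₀, cj d₀ i u₀⁆
        (by rw [map_commutatorElement, τU, τcj _ _ _ τU]; rfl)
        (by rw [map_commutatorElement, hρu, hρcj, commutatorElement_eq_one_iff_commute]; exact hX.comm _ _)
      obtain ⟨Q2, hQ2⟩ := hcen ((cj gH j gU)⁻¹ * (gU * cj gH i gU)) ((cj d₀ j u₀)⁻¹ * (u₀ * cj d₀ i u₀))
        (by rw [map_mul, map_inv, map_mul, τU, τcj _ _ _ τU, τcj _ _ _ τU]; rfl)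
        (by rw [map_mul, map_inv, map_mul, hρu, hρcj, hρcj, ← hX.add, hij, inv_mul_cancel])
      obtain ⟨Q3, hQ3⟩ := hcen ((gH * gU * gH⁻¹)⁻¹ * pval gU gH i P) ((d₀ * u₀ * d₀⁻¹)⁻¹ * pval u₀ d₀ i P)
        (by rw [map_mul, map_inv, map_mul, map_mul, map_inv, τU, τH, τpv _ _ _ _ τU]; rfl)
        (by
          rw [map_mul, map_inv, hρpv, hP', map_mul, map_mul, map_inv, hρu, hX.conj,
            mul_one, inv_mul_cancel])
      obtain ⟨Q4, hQ4⟩ := hcen (pval gU gH 1 (minpoly (ZMod p) g)) (pval u₀ d₀ 1 (minpoly (ZMod p) g))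
        (τpv _ _ _ _ τU) (by rw [hρpv, pow_one, minpoly.aeval, hX.zero])
      refine ⟨[⁅gU, cj gH i gU⁆ * (pval zw gH 1 Q1)⁻¹,
        (cj gH j gU)⁻¹ * (gU * cj gH i gU) * (pval zw gH 1 Q2)⁻¹,
        (gH * gU * gH⁻¹)⁻¹ * pval gU gH i P * (pval zw gH 1 Q3)⁻¹,
        pval gU gH 1 (minpoly (ZMod p) g) * (pval zw gH 1 Q4)⁻¹], by simp, ?_,
        fun R hR => Or.inl ⟨i, j, P, ?_, ?_, ?_, ?_⟩⟩
      · intro r hr
        simp only [List.mem_cons, List.not_mem_nil, or_false] at hr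
        rcases hr with rfl | rfl | rfl | rfl <;> assumption
      · simpa only [map_commutatorElement, ← hmk] using
          hin (x := ⁅gU, cj gH i gU⁆) (P := Q1) (hR _ (by simp only [List.mem_cons, true_or, or_true]))
      · simpa only [map_mul, map_inv, ← hmk] using
          hin (x := (cj gH j gU)⁻¹ * (gU * cj gH i gU)) (P := Q2) (hR _ (by simp only [List.mem_cons, true_or, or_true]))
      · simpa only [map_mul, map_inv, map_pval] using
          hin (x := (gH * gU * gH⁻¹)⁻¹ * pval gU gH i P) (P := Q3) (hR _ (by simp only [List.mem_cons, true_or, or_true]))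
      · simpa only [map_pval] using hin (x := pval gU gH 1 (minpoly (ZMod p) g)) (P := Q4) (hR _ (by simp only [List.mem_cons, true_or, or_true]))
    · obtain ⟨L, h1, h2, h3⟩ := small ((natDegree_minpoly_eq (aeval_mu_surjective h hω hq)).trans_le hN)
      exact ⟨L, h1, h2, fun R hR => Or.inr (h3 R hR)⟩
  · have hN : Module.finrank (ZMod p) F ≤ 6 := by
      have hc : Nat.card F = p ^ Module.finrank (ZMod p) F := by
        rw [Module.natCard_eq_pow_finrank (K := ZMod p), Nat.card_zmod]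
      rw [h.card, show q = 4 by omega] at hc
      by_contra hlt
      have : 2 ^ 7 ≤ p ^ Module.finrank (ZMod p) F :=
        (Nat.pow_le_pow_left (Fact.out : p.Prime).two_le 7).trans
          (Nat.pow_le_pow_right (Fact.out : p.Prime).pos (by omega))
      rw [← hc] at this
      norm_num at this
    obtain ⟨L, h1, h2, h3⟩ := small ((natDegree_minpoly_eq (aeval_mu_surjective h hω hq)).trans_le hN)
    exact ⟨L, h1, h2, fun R hR => Or.inr (h3 R hR)⟩

set_option maxHeartbeats 1600000 in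
/-- Relators for `SU₃(q)`. -/
theorem exists_relators (p : ℕ) [Fact p.Prime] [Algebra (ZMod p) F] {ω : Fˣ} (hω : orderOf ω = q ^ 2 - 1) (hq : 4 ≤ q) (hq5 : q ≠ 5) {t₀ : Tp σ}
    (ht₀ : t₀.1.1 = 1) :
    ∃ R : Finset (FreeGroup (Fin 3)), R.card ≤ 23 ∧
      ∃ e : PresentedGroup (↑R : Set (FreeGroup (Fin 3))) ≃* suAnti σ,
        e (PresentedGroup.of 1) = dT h ω := by
  classical
  haveI : Module.Finite (ZMod p) F := Module.Finite.of_finite
  obtain ⟨δ, hδ0, hδ⟩ := h.exists_skew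
  set τ := tau h t₀ ω with hτdef
  have τU : τ gU = (uB h t₀ : suAnti σ) := by simp [hτdef, tau, coe_uB]
  have τH : τ gH = (dB h ω : suAnti σ) := by simp [hτdef, tau, coe_dB]
  have τW : τ gW = wEl₃ σ := by simp [hτdef, tau]
  -- words for the elements of the upper triangular subgroup
  set S₂ : Set (FreeGroup (Fin 3)) := {gU, gH}
  have hS₂ : Bor σ ≤ (Subgroup.closure S₂).map τ := by
    have hu : uT h t₀ ∈ (Subgroup.closure S₂).map τ := ⟨gU, Subgroup.subset_closure (Or.inl rfl), τU⟩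
    have hd : dT h ω ∈ (Subgroup.closure S₂).map τ := ⟨gH, Subgroup.subset_closure (Or.inr rfl), τH⟩
    exact bor_le h hω hq _ ht₀ hδ hδ0 hu hd (zP_mem h hω ht₀ hδ hδ0 hq _ hu hd)
  choose wd hwdm hwd using fun b : Bor σ => hS₂ b.2
  set zw := wd (uB h (zP δ hδ)) with hzw
  have τZ : τ zw = (uB h (zP δ hδ) : suAnti σ) := hwd _
  have τpv : ∀ (i : ℕ) (P : (ZMod p)[X]) (x : FreeGroup (Fin 3)) (xb : Bor σ), τ x = (xb : suAnti σ) →
      τ (pval x gH i P) = ((pval xb (dB h ω) i P : Bor σ) : suAnti σ) := tau_pval h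
  have τcj : ∀ (k : ℕ) (x : FreeGroup (Fin 3)) (xb : Bor σ), τ x = (xb : suAnti σ) →
      τ (cj gH k x) = ((cj (dB h ω) k xb : Bor σ) : suAnti σ) := tau_cj h
  -- the tail of a word in the long root group
  have hcen : ∀ (x : FreeGroup (Fin 3)) (xb : Bor σ), τ x = (xb : suAnti σ) → rhoU σ xb = 1 →
      ∃ P : (ZMod p)[X], τ (x * (pval zw gH 1 P)⁻¹) = 1 := fun x xb e he => by
    obtain ⟨P, hP⟩ := exists_pval_cen (p := p) h hω hδ hδ0 he
    exact ⟨P, by rw [map_mul, map_inv, τpv 1 P zw _ τZ, hP, e, mul_inv_cancel]⟩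
  obtain ⟨X, hX⟩ := exists_isUnip_rho h (ω := ω) ht₀
  obtain ⟨Z, hZ, hZc⟩ := exists_isUnip_zB h (ω := ω) hδ
  set u₀ := uB h t₀ with hu₀
  set d₀ := dB h ω with hd₀
  set g := muF σ ω with hg
  set ν := nuF σ ω with hν
  have hρcj : ∀ k, rhoU σ (cj d₀ k u₀) = X (g ^ k) := fun k => by
    rw [← hX.pow_conj_one]; simp [cj, map_mul, map_pow, map_inv, hu₀, hd₀]
  have hρu : rhoU σ u₀ = X 1 := hX.one.symm
  have hρpv : ∀ i (P : (ZMod p)[X]), rhoU σ (pval u₀ d₀ i P) = X (aeval (g ^ i) P) := fun i P => by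
    rw [map_pval, hX.pval_eq]
  -- identities in the long root group
  have rz1 : d₀ ^ (q ^ 2 - 1) = 1 := by rw [hd₀, ← map_pow, ← hω, pow_orderOf_eq_one, map_one]
  have rz2 : (uB h (zP δ hδ)) ^ p = 1 := by rw [← hZ.one, ← hZ.nsmul, smul_char, hZ.zero]
  have rz3 : ⁅uB h (zP δ hδ), cj d₀ 1 (uB h (zP δ hδ))⁆ = 1 := by
    rw [commutatorElement_eq_one_iff_commute, hd₀, dB_uB_pow]
    exact commute_cen h rfl _
  obtain ⟨jz, hjz⟩ := exists_one_add_nu h hω hq
  have rz4 : cj d₀ jz (uB h (zP δ hδ)) = uB h (zP δ hδ) * cj d₀ 1 (uB h (zP δ hδ)) := by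
    simp only [cj]
    rw [hZ.pow_conj_one, hZ.pow_conj_one, hjz, hZ.add, hZ.one, pow_one]
  have rz5 : pval (uB h (zP δ hδ)) d₀ 1 (minpoly (ZMod p) ν) = 1 := by
    rw [hZ.pval_eq, pow_one, minpoly.aeval, hZ.zero]
  have rz6 : ∀ k, ⁅uB h (zP δ hδ), cj d₀ k u₀⁆ = 1 := fun k => by
    rw [commutatorElement_eq_one_iff_commute, hd₀, hu₀, dB_uB_pow]
    exact commute_cen h rfl _
  have rz7 : ⁅uB h (zP δ hδ), d₀ ^ (q - 1)⁆ = 1 := by
    rw [commutatorElement_eq_one_iff_commute]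
    have e : d₀ ^ (q - 1) * uB h (zP δ hδ) * (d₀ ^ (q - 1))⁻¹ = uB h (zP δ hδ) := by
      have h1 : ν ^ (q - 1) = 1 := pow_sub_one_eq_of_fixed h hω (by simp [hν, nuF]) (nuF_fixed h ω)
      rw [hZ.pow_conj_one, h1, hZ.one]
    exact (mul_inv_eq_iff_eq_mul.1 e).symm
  -- the span relation
  obtain ⟨P₀, P₁, P₂, hP⟩ := exists_zeta_coords (p := p) h hω hq (g ^ 3)
  set V := pval gU gH (q - 1) P₀ * pval (cj gH 1 gU) gH (q - 1) P₁ * pval (cj gH 2 gU) gH (q - 1) P₂
    with hV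
  have hpvk : ∀ k (P : (ZMod p)[X]),
      rhoU σ (pval (cj d₀ k u₀) d₀ (q - 1) P) = X (g ^ k * aeval (g ^ (q - 1)) P) := fun k P => by
    rw [map_pval, hρcj]
    have hXk : IsUnip (X (g ^ k)) (rhoU σ d₀) g (fun x => X (g ^ k * x)) :=
      ⟨fun s t => by rw [← hX.add, mul_add], by rw [mul_one], fun t => by
        rw [hX.conj]; congr 1; ring⟩
    exact hXk.pval_eq _ _
  obtain ⟨Ps, hPs⟩ := hcen ((cj gH 3 gU)⁻¹ * V)
    ((cj d₀ 3 u₀)⁻¹ * (pval u₀ d₀ (q - 1) P₀ * pval (cj d₀ 1 u₀) d₀ (q - 1) P₁ *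
      pval (cj d₀ 2 u₀) d₀ (q - 1) P₂))
    (by rw [hV, map_mul, map_inv, map_mul, map_mul, τcj 3 _ _ τU, τpv _ _ _ _ τU,
      τpv _ _ _ _ (τcj 1 _ _ τU), τpv _ _ _ _ (τcj 2 _ _ τU)]; rfl)
    (by
      rw [map_mul, map_inv, map_mul, map_mul, hρcj, hρpv, hpvk, hpvk, ← hX.add, ← hX.add, pow_one,
        ← hP, inv_mul_cancel])
  -- the power relation
  obtain ⟨Pp, hPp⟩ := hcen (gU ^ p) (u₀ ^ p) (by rw [map_pow, τU]; rfl)
    (by rw [map_pow, hρu, ← hX.nsmul, smul_char, hX.zero])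
  obtain ⟨L, hLlen, hLτ, hLG⟩ := exists_cert h p hω hq hq5 ht₀ hδ hδ0 zw τZ
  -- seeds
  have hT : (ω : F) / δ + σ ((ω : F) / δ) ≠ 0 := by
    intro e
    refine not_fixed_omega_pow h hω (m := 1) one_pos (by omega) ?_
    rw [map_div₀, hδ, div_neg, ← sub_eq_add_neg, sub_eq_zero, div_left_inj' hδ0] at e
    rw [pow_one]; exact e.symm
  have hr := rsec_spec h hT
  set r₀ := rsec σ ((ω : F) / δ)
  let S : Fin 3 → Tp σ := fun i => ⟨((ω : F) ^ (i : ℕ), r₀ * ((ω : F) ^ (i : ℕ) * σ ((ω : F) ^ (i : ℕ)))), by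
    simp only [map_mul, h.conj_conj]
    linear_combination ((ω : F) ^ (i : ℕ) * σ ((ω : F) ^ (i : ℕ))) * hr⟩
  have hSc : ∀ i, (S i).1.2 ≠ 0 := fun i =>
    tp_snd_ne h (S i) fun e => pow_ne_zero _ ω.ne_zero (congrArg Prod.fst e)
  have hzc : (zP δ hδ : Tp σ).1.2 ≠ 0 := hδ0
  set bru : (t : Tp σ) → t.1.2 ≠ 0 → FreeGroup (Fin 3) := fun t hc =>
    gW * wd (uB h t) * gW *
      (wd (uB h (tal h t) * dB h (sU σ (Units.mk0 t.1.2 hc))⁻¹) * gW * wd (uB h (tbe h t)))⁻¹ with hbru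
  have τbru : ∀ t hc, τ (bru t hc) = 1 := fun t hc => by
    simp only [hbru, map_mul, map_inv, hwd, τW, coe_uB, Subgroup.coe_mul, InvMemClass.coe_inv, coe_dB]
    rw [← map_inv (dT h), w_uT_w h t hc, mul_inv_cancel]
  set R : List (FreeGroup (Fin 3)) :=
    [gH ^ (q ^ 2 - 1), zw ^ p, ⁅zw, cj gH 1 zw⁆, cj gH jz zw * (zw * cj gH 1 zw)⁻¹,
      pval zw gH 1 (minpoly (ZMod p) ν), ⁅zw, cj gH 0 gU⁆, ⁅zw, cj gH 1 gU⁆, ⁅zw, cj gH 2 gU⁆,
      ⁅zw, gH ^ (q - 1)⁆, (cj gH 3 gU)⁻¹ * V * (pval zw gH 1 Ps)⁻¹, gU ^ p * (pval zw gH 1 Pp)⁻¹,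
      gW * gW, gW * gH * gW * (wd (dB h (sU σ ω)⁻¹))⁻¹,
      bru (zP δ hδ) hzc, bru (S 0) (hSc 0), bru (S 1) (hSc 1), bru (S 2) (hSc 2)] ++ L with hRdef
  have hRτ : ∀ r ∈ R, τ r = 1 := by
    intro r hr
    simp only [hRdef, List.mem_append, List.mem_cons, List.not_mem_nil, or_false] at hr
    rcases hr with (rfl | rfl | rfl | rfl | rfl | rfl | rfl | rfl | rfl | rfl | rfl | rfl | rfl | rfl |
      rfl | rfl | rfl) | hr
    · rw [map_pow, τH, ← SubgroupClass.coe_pow, rz1]; rfl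
    · rw [map_pow, τZ, ← SubgroupClass.coe_pow, rz2]; rfl
    · rw [map_commutatorElement, τZ, τcj _ _ _ τZ]; exact congrArg Subtype.val rz3
    · rw [map_mul, map_inv, map_mul, τZ, τcj _ _ _ τZ, τcj _ _ _ τZ, rz4]; exact mul_inv_cancel _
    · rw [τpv _ _ _ _ τZ]; exact congrArg Subtype.val rz5
    · rw [map_commutatorElement, τZ, τcj _ _ _ τU]; exact congrArg Subtype.val (rz6 0)
    · rw [map_commutatorElement, τZ, τcj _ _ _ τU]; exact congrArg Subtype.val (rz6 1)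
    · rw [map_commutatorElement, τZ, τcj _ _ _ τU]; exact congrArg Subtype.val (rz6 2)
    · rw [map_commutatorElement, τZ, map_pow, τH]; exact congrArg Subtype.val rz7
    · exact hPs
    · exact hPp
    · rw [map_mul, τW, w_mul_w h]
    · rw [map_mul, map_mul, map_mul, map_inv, τW, τH, hwd, coe_dB, coe_dB, w_dT_w h, mul_inv_cancel]
    · exact τbru _ _
    · exact τbru _ _
    · exact τbru _ _
    · exact τbru _ _
    · exact hLτ r hr
  refine ⟨R.toFinset, (List.toFinset_card_le R).trans (by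
    simp only [hRdef, List.length_append, List.length_cons, List.length_nil]; omega), ?_⟩
  set Rs : Set (FreeGroup (Fin 3)) := ↑R.toFinset with hRs
  have hmem : ∀ r ∈ R, r ∈ Rs := fun r hr => by simpa [hRs] using hr
  set mk := PresentedGroup.mk Rs with hmkdef
  have hone : ∀ r ∈ R, mk r = 1 := fun r hr => PresentedGroup.one_of_mem (hmem r hr)
  have hτ' : ∀ r ∈ Rs, FreeGroup.lift ![uT h t₀, dT h ω, wEl₃ σ] r = 1 := fun r hr =>
    hRτ r (by simpa [hRs] using hr)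
  set π : PresentedGroup Rs →* suAnti σ := PresentedGroup.toGroup hτ'
  have hπ : π.comp mk = τ := FreeGroup.ext_hom _ _ fun a => by
    show π (PresentedGroup.of a) = FreeGroup.lift _ (FreeGroup.of a)
    rw [PresentedGroup.toGroup.of, FreeGroup.lift_apply_of]
  have hπ' : ∀ x, π (mk x) = τ x := fun x => DFunLike.congr_fun hπ x
  have hcj' : ∀ k x, mk (cj gH k x) = cj (mk gH) k (mk x) := fun k x => by simp [cj]
  have hzin : ∀ P : (ZMod p)[X], pval (mk zw) (mk gH) 1 P ∈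
      Subgroup.closure (Set.range fun k : ℕ => cj (mk gH) k (mk zw)) := fun P =>
    pval_mem P _ fun k => Subgroup.subset_closure ⟨1 * k, rfl⟩
  have hcl2 : ∀ x ∈ Subgroup.closure S₂, mk x ∈ Subgroup.closure ({mk gU, mk gH} : Set _) := fun x hx => by
    have hx' := Subgroup.mem_map_of_mem mk hx
    rwa [MonoidHom.map_closure, Set.image_insert_eq, Set.image_singleton] at hx'
  let R0 : Rels h ω t₀ hδ π p :=
    { u := mk gU
      hh := mk gH
      z := mk zw
      πu := (hπ' _).trans τU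
      πh := (hπ' _).trans τH
      πz := (hπ' _).trans τZ
      zmem := hcl2 _ (hwdm _)
      hord := by rw [← map_pow]; exact hone _ (by simp [hRdef])
      zp := by rw [← map_pow]; exact hone _ (by simp [hRdef])
      zcomm := by
        rw [← commutatorElement_eq_one_iff_commute, ← hcj', ← map_commutatorElement]
        exact hone _ (by simp [hRdef])
      zsplit := ⟨jz, by
        rw [← mul_inv_eq_one, ← hcj', ← hcj', ← map_mul, ← map_inv, ← map_mul]
        exact hone _ (by simp [hRdef])⟩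
      zmin := by rw [← map_pval]; exact hone _ (by simp [hRdef, hν])
      cu := fun k hk => by
        rw [← commutatorElement_eq_one_iff_commute, ← hcj', ← map_commutatorElement]
        interval_cases k <;> exact hone _ (by simp [hRdef])
      ck := by
        rw [← commutatorElement_eq_one_iff_commute, ← map_pow, ← map_commutatorElement]
        exact hone _ (by simp [hRdef])
      cspan := by
        have e := hone ((cj gH 3 gU)⁻¹ * V * (pval zw gH 1 Ps)⁻¹) (by simp [hRdef])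
        rw [map_mul, map_mul, map_inv, map_inv, mul_inv_eq_one, inv_mul_eq_iff_eq_mul, hcj'] at e
        rw [show cj (mk gH) 3 (mk gU) = mk V * (mk (pval zw gH 1 Ps))⁻¹ by rw [e, mul_inv_cancel_right],
          map_pval, hV, map_mul, map_mul, map_pval, map_pval, map_pval, hcj', hcj']
        have hz : ∀ k, cj (mk gH) k (mk zw) ∈ Subgroup.closure
            (({mk gU, cj (mk gH) 1 (mk gU), cj (mk gH) 2 (mk gU), mk gH ^ (q - 1)} : Set (PresentedGroup Rs)) ∪
              Set.range fun k : ℕ => cj (mk gH) k (mk zw)) := fun k =>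
          Subgroup.subset_closure (Or.inr ⟨k, rfl⟩)
        have hpow : ∀ y ∈ ({mk gU, cj (mk gH) 1 (mk gU), cj (mk gH) 2 (mk gU)} : Set (PresentedGroup Rs)), ∀ k : ℕ,
            mk gH ^ ((q - 1) * k) * y * (mk gH ^ ((q - 1) * k))⁻¹ ∈ Subgroup.closure
            (({mk gU, cj (mk gH) 1 (mk gU), cj (mk gH) 2 (mk gU), mk gH ^ (q - 1)} : Set (PresentedGroup Rs)) ∪
              Set.range fun k : ℕ => cj (mk gH) k (mk zw)) := fun y hy k => by
          rw [pow_mul]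
          have hq1 : mk gH ^ (q - 1) ∈ Subgroup.closure
              (({mk gU, cj (mk gH) 1 (mk gU), cj (mk gH) 2 (mk gU), mk gH ^ (q - 1)} : Set (PresentedGroup Rs)) ∪
                Set.range fun k : ℕ => cj (mk gH) k (mk zw)) := Subgroup.subset_closure (Or.inl (by simp))
          refine mul_mem (mul_mem (pow_mem hq1 k) (Subgroup.subset_closure (Or.inl ?_)))
            (inv_mem (pow_mem hq1 k))
          rcases hy with rfl | rfl | rfl <;> simp
        refine mul_mem (mul_mem (mul_mem ?_ ?_) ?_) (inv_mem (pval_mem Ps _ fun k => hz (1 * k)))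
        · exact pval_mem P₀ _ (hpow _ (by simp))
        · exact pval_mem P₁ _ (hpow _ (by simp))
        · exact pval_mem P₂ _ (hpow _ (by simp))
      up := by
        have e := hone (gU ^ p * (pval zw gH 1 Pp)⁻¹) (by simp [hRdef])
        rw [map_mul, map_inv, mul_inv_eq_one, map_pow, map_pval] at e
        rw [e]; exact hzin Pp
      ucert := hLG Rs fun r hr => hmem r (by simp [hRdef, hr]) }
  obtain ⟨φ, hφ, hφr⟩ := R0.exists_phi hω hq ht₀ hδ0
  have hφwd : ∀ b : Bor σ, mk (wd b) = φ b := by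
    intro b
    obtain ⟨b', hb'⟩ : mk (wd b) ∈ φ.range := by rw [hφr]; exact hcl2 _ (hwdm b)
    have : (b' : suAnti σ) = b := by rw [← hφ b', hb', hπ', hwd]
    rw [← hb', Subtype.ext this]
  have hw2 : mk gW * mk gW = 1 := by rw [← map_mul]; exact hone _ (by simp [hRdef])
  have hπw : π (mk gW) = wEl₃ σ := (hπ' _).trans τW
  have hH : mk gH = φ (dB h ω) := by
    obtain ⟨b', hb'⟩ : mk gH ∈ φ.range := by rw [hφr]; exact R0.hh_mem
    have : (b' : suAnti σ) = dB h ω := by rw [← hφ b', hb', hπ', τH]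
    rw [← hb', Subtype.ext this]
  have hwd0 : mk gW * φ (dB h ω) * mk gW = φ (dB h (sU σ ω)⁻¹) := by
    rw [← hH, ← hφwd, ← map_mul, ← map_mul, ← mul_inv_eq_one, ← map_inv, ← map_mul]
    exact hone _ (by simp [hRdef])
  have hwd' := hwd_of_gen h φ hw2 hω hwd0
  have hgood : ∀ t hc, bru t hc ∈ R → Good h φ (mk gW) t := fun t hc hr => by
    have e := hone _ hr
    simp only [hbru, map_mul, map_inv, hφwd, mul_inv_eq_one] at e
    refine ⟨uB h (tal h t) * dB h (sU σ (Units.mk0 t.1.2 hc))⁻¹, tbe h t, ?_⟩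
    rw [e, map_mul, map_inv, map_inv]
  have hall := good_all h hw2 hwd' hφ hπw hω hδ0 hT (hgood _ hzc (by simp [hRdef])) S (fun i => rfl)
    (fun i => rfl) (fun i => hgood _ (hSc i) (by fin_cases i <;> simp [hRdef]))
  have hgen : Subgroup.closure ((φ.range : Set (PresentedGroup Rs)) ∪ {mk gW}) = ⊤ := by
    rw [eq_top_iff, ← PresentedGroup.closure_range_of Rs, Subgroup.closure_le]
    rintro _ ⟨a, rfl⟩
    refine Subgroup.subset_closure ?_
    fin_cases a
    · exact Or.inl (by rw [SetLike.mem_coe, hφr]; exact R0.u_mem)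
    · exact Or.inl (by rw [SetLike.mem_coe, hφr]; exact R0.hh_mem)
    · exact Or.inr rfl
  have hinj := injective_of_good h hw2 hwd' hφ hπw hall hgen
  have hsurj : Function.Surjective π := fun g => by
    obtain ⟨x, hx⟩ := tau_surjective h hω hq ht₀ g
    exact ⟨mk x, (hπ' x).trans hx⟩
  refine ⟨MulEquiv.ofBijective π ⟨hinj, hsurj⟩, ?_⟩
  show π (mk gH) = dT h ω
  rw [hπ', τH, coe_dB]

/-- `SU₃(q)` and `PSU₃(q)` on three generators. -/
theorem presentation (hq : 4 ≤ q) (hq5 : q ≠ 5) :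
    (∃ rels : Finset (FreeGroup (Fin 3)), rels.card ≤ 23 ∧
      Nonempty (PresentedGroup (↑rels : Set (FreeGroup (Fin 3))) ≃* suAnti σ)) ∧
    ∃ rels : Finset (FreeGroup (Fin 3)), rels.card ≤ 24 ∧
      Nonempty (PresentedGroup (↑rels : Set (FreeGroup (Fin 3))) ≃*
        suAnti σ ⧸ Subgroup.center (suAnti σ)) := by
  obtain ⟨c, hc⟩ := CharP.exists F
  have : Fact c.Prime := ⟨CharP.char_is_prime F c⟩
  let _ : Algebra (ZMod c) F := ZMod.algebra F c
  obtain ⟨ω, hω⟩ := h.exists_gen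
  obtain ⟨t₀, ht₀⟩ := exists_tp h 1
  obtain ⟨R, hR, e, he⟩ := exists_relators h c hω hq hq5 ht₀
  refine ⟨⟨R, hR, ⟨e⟩⟩, ?_⟩
  -- the centre is a subgroup of the torus
  have hle : Subgroup.center (suAnti σ) ≤ (dT h).range := by
    intro g hg
    obtain ⟨s, hs3, hs⟩ := scalar_of_mem_center h hg
    have hs0 : s ≠ 0 := fun e0 => by simp [e0] at hs3
    have hu : s * σ s = 1 := by
      have := form_entry h g 0 2
      simpa [hs, antiForm, Matrix.mul_apply, Fin.sum_univ_three] using this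
    refine ⟨Units.mk0 s hs0, mat₃_injective σ ?_⟩
    rw [mat_dT, hs]
    have h1 : σ s = s⁻¹ := eq_inv_of_mul_eq_one_right hu
    ext i j
    fin_cases i <;> fin_cases j <;> simp [dMat₃, h1]
    field_simp
    linear_combination -hs3
  obtain ⟨⟨l, hl⟩, hgen⟩ :=
    IsCyclic.exists_generator (α := ((Subgroup.center (suAnti σ)).comap (dT h)))
  obtain ⟨k, hk⟩ := exists_pow_omega h hω l
  have hek : e (PresentedGroup.mk _ (FreeGroup.of (1 : Fin 3) ^ k)) = dT h l := by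
    rw [map_pow, map_pow, ← hk, map_pow]
    exact congrArg (· ^ k) he
  obtain ⟨R', hR', e'⟩ := CfsgLib.Sp4Pres.exists_quotient_presentation R e (FreeGroup.of (1 : Fin 3) ^ k)
    (fun x hx => by
      obtain ⟨m, rfl⟩ := hle hx
      obtain ⟨n, hn⟩ := hgen ⟨m, hx⟩
      refine ⟨n, ?_⟩
      show _ ^ n = _
      rw [hek, ← map_zpow]
      exact congrArg (dT h) (congrArg Subtype.val hn))
    (by rw [hek]; exact hl)
  exact ⟨R', hR'.trans (by omega), e'⟩

end CfsgLib.SU3Pres
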